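import Mathlib

set_option autoImplicit false

/-!
# Two opposite "Moufang-like" planes over `F_3`: an element of determinant `-1`

Task 492 (for S5228).
-/

open Subgroup

namespace Cfsg.Agent.H993.ExistsDet

theorem pow_mod_three {M : Type*} [Monoid M] {z : M} (h : z ^ 3 = 1) (n : ℕ) : z ^ (n % 3) = z ^ n := by
  conv_rhs => rw [← Nat.mod_add_div n 3, pow_add, pow_mul, h, one_pow, mul_one]

/-- coordinates on `⟨z1, z2⟩` -/
def E {M : Type*} [CommGroup M] (z1 z2 : M) (v : ZMod 3 × ZMod 3) : M := z1 ^ v.1.val * z2 ^ v.2.val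

section
variable {M : Type*} [CommGroup M] {z1 z2 : M} (h1 : z1 ^ 3 = 1) (h2 : z2 ^ 3 = 1)
include h1 h2

theorem E_add (v w : ZMod 3 × ZMod 3) : E z1 z2 (v + w) = E z1 z2 v * E z1 z2 w := by
  unfold E
  have a1 : z1 ^ (v + w).1.val = z1 ^ v.1.val * z1 ^ w.1.val := by
    rw [Prod.fst_add, ZMod.val_add, pow_mod_three h1, pow_add]
  have a2 : z2 ^ (v + w).2.val = z2 ^ v.2.val * z2 ^ w.2.val := by
    rw [Prod.snd_add, ZMod.val_add, pow_mod_three h2, pow_add]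
  rw [a1, a2]
  exact mul_mul_mul_comm _ _ _ _

theorem E_smul (k : ZMod 3) (v : ZMod 3 × ZMod 3) :
    E z1 z2 (k * v.1, k * v.2) = E z1 z2 v ^ k.val := by
  unfold E
  have a1 : z1 ^ (k * v.1).val = (z1 ^ v.1.val) ^ k.val := by
    rw [ZMod.val_mul, pow_mod_three h1, mul_comm, pow_mul]
  have a2 : z2 ^ (k * v.2).val = (z2 ^ v.2.val) ^ k.val := by
    rw [ZMod.val_mul, pow_mod_three h2, mul_comm, pow_mul]
  simp only [a1, a2, mul_pow]

theorem E_inj (hind : ∀ i j : ℕ, z1 ^ i * z2 ^ j = 1 → 3 ∣ i ∧ 3 ∣ j) {v w : ZMod 3 × ZMod 3}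
    (h : E z1 z2 v = E z1 z2 w) : v = w := by
  have h0 : E z1 z2 (v - w) = 1 := by
    have := E_add h1 h2 (v - w) w
    rw [sub_add_cancel, h] at this
    exact (mul_eq_right.mp this.symm)
  obtain ⟨a, b⟩ := hind _ _ h0
  have hz : ∀ x : ZMod 3, 3 ∣ x.val → x = 0 := by decide
  exact sub_eq_zero.mp (Prod.ext (hz _ a) (hz _ b))

theorem mem_range (Z2 : Subgroup M) (hZ2 : Z2 = closure {z1, z2}) {z : M} :
    z ∈ Z2 ↔ ∃ v, z = E z1 z2 v := by
  subst hZ2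
  constructor
  · intro h
    rw [mem_closure_pair] at h
    obtain ⟨m, n, rfl⟩ := h
    refine ⟨((m : ZMod 3), (n : ZMod 3)), ?_⟩
    have key : ∀ (z : M), z ^ 3 = 1 → ∀ m : ℤ, z ^ m = z ^ ((m : ZMod 3).val) := by
      intro z hz m
      have e : (m : ℤ) % 3 = ((m : ZMod 3).val : ℤ) := by
        rw [ZMod.val_intCast]
        rfl
      have hz' : z ^ (3 : ℤ) = 1 := by exact_mod_cast hz
      conv_lhs => rw [← Int.emod_add_mul_ediv m 3, zpow_add, zpow_mul, hz', one_zpow, mul_one, e, zpow_natCast]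
    rw [E, key z1 h1, key z2 h2]
  · rintro ⟨v, rfl⟩
    exact mul_mem (pow_mem (subset_closure (by simp)) _) (pow_mem (subset_closure (by simp)) _)

end

/-- the value of `E` on the first basis vector -/
theorem E_one {M : Type*} [CommGroup M] (z1 z2 : M) : E z1 z2 (1, 0) = z1 := by
  simp [E, ZMod.val_one_eq_one_mod]

theorem E_two {M : Type*} [CommGroup M] (z1 z2 : M) : E z1 z2 (0, 1) = z2 := by
  simp [E, ZMod.val_one_eq_one_mod]

/-- finite check 1 -/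
theorem det_ne (x y : ZMod 3 × ZMod 3)
    (h : ∀ i j : ZMod 3, (i, j) ≠ (0, 0) → (i * x.1 + j * y.1, i * x.2 + j * y.2) ≠ ((0 : ZMod 3), (0 : ZMod 3))) :
    x.1 * y.2 - x.2 * y.1 ≠ 0 := by
  revert x y
  decide

/-- finite check 2 -/
theorem exists_neg (y y' : ZMod 3 × ZMod 3)
    (h : ∀ i j : ZMod 3, (i, j) ≠ (0, 0) → i * (i * y.2 + j * y'.2) - j * (i * y.1 + j * y'.1) ≠ 0) :
    ∃ i j : ZMod 3, i * (i * y.2 + j * y'.2) - j * (i * y.1 + j * y'.1) = - y.2 := by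
  revert y y'
  decide


/-- D -/
theorem exists_det {A M : Type*} [Group A] [CommGroup M] (ρ : A →* MulAut M) (T : Subgroup A) (z1 z2 : M)
    (h1 : z1 ^ 3 = 1) (h2 : z2 ^ 3 = 1) (hind : ∀ i j : ℕ, z1 ^ i * z2 ^ j = 1 → 3 ∣ i ∧ 3 ∣ j)
    (Z2 : Subgroup M) (hZ2 : Z2 = closure {z1, z2})
    (hT1 : ∀ n ∈ T, ∀ v, ρ n v * v⁻¹ ∈ Z2) (hT2 : ∀ n ∈ T, ∀ z ∈ Z2, ρ n z = z)
    (hdis : ∀ a b : A, ∀ v, v ≠ 1 → v ∈ Z2.map (ρ a).toMonoidHom → v ∈ Z2.map (ρ b).toMonoidHom →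
      Z2.map (ρ a).toMonoidHom = Z2.map (ρ b).toMonoidHom)
    (b : A) (hb : Z2.map (ρ b).toMonoidHom ≠ Z2)
    (hs : ∀ a : A, Z2.map (ρ a).toMonoidHom ≠ Z2 → ∀ l ∈ Z2.map (ρ a).toMonoidHom, l ≠ 1 → ∀ z ∈ Z2,
      ∃ n ∈ T, ρ n l = l * z)
    (hinj : ∀ n ∈ T, (∃ v, ρ n v ≠ v) → ∀ a : A, Z2.map (ρ a).toMonoidHom ≠ Z2 →
      Z2.map (ρ (n * a)).toMonoidHom ≠ Z2.map (ρ a).toMonoidHom) :
    ∃ h ∈ closure {x : A | ∃ a : A, ∃ n ∈ T, x = a * n * a⁻¹}, ∃ a11 a12 a21 a22 : ℕ,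
      ρ h z1 = z1 ^ a11 * z2 ^ a12 ∧ ρ h z2 = z1 ^ a21 * z2 ^ a22 ∧ (a11 * a22) % 3 = (a12 * a21 + 2) % 3 := by
  -- membership in the members
  have mem_iff : ∀ (a : A) (v : M), v ∈ Z2.map (ρ a).toMonoidHom ↔ ∃ z ∈ Z2, ρ a z = v := by
    intro a v
    constructor
    · rintro ⟨z, hz, rfl⟩
      exact ⟨z, hz, rfl⟩
    · rintro ⟨z, hz, rfl⟩
      exact ⟨z, hz, rfl⟩
  have map_one : Z2.map (ρ 1).toMonoidHom = Z2 := by
    ext v
    rw [mem_iff]
    simp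
  have Einj : ∀ v w, E z1 z2 v = E z1 z2 w → v = w := fun v w => E_inj h1 h2 hind
  have Eadd := E_add h1 h2
  have Esmul := E_smul h1 h2
  have Z2mem : ∀ z, z ∈ Z2 ↔ ∃ v, z = E z1 z2 v := fun z => mem_range h1 h2 Z2 hZ2
  have E0 : E z1 z2 (0, 0) = 1 := by simp [E]
  have hz1 : z1 ∈ Z2 := (Z2mem _).mpr ⟨(1, 0), (E_one z1 z2).symm⟩
  have hz2 : z2 ∈ Z2 := (Z2mem _).mpr ⟨(0, 1), (E_two z1 z2).symm⟩
  have z1ne : z1 ≠ 1 := by
    intro h
    have := Einj (1, 0) (0, 0) (by rw [E_one, E0, h])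
    exact absurd this (by decide)
  -- `L ∩ Z2 = 1`
  have disj : ∀ v, v ∈ Z2.map (ρ b).toMonoidHom → v ∈ Z2 → v = 1 := by
    intro v hv hv'
    by_contra hne
    have := hdis b 1 v hne hv (by rw [map_one]; exact hv')
    rw [map_one] at this
    exact hb this
  set L := Z2.map (ρ b).toMonoidHom with hL
  set l1 := ρ b z1 with hl1
  set l2 := ρ b z2 with hl2
  have l1L : l1 ∈ L := ⟨z1, hz1, rfl⟩
  have l2L : l2 ∈ L := ⟨z2, hz2, rfl⟩
  have l1ne : l1 ≠ 1 := by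
    intro h
    exact z1ne ((ρ b).injective (by rw [_root_.map_one]; exact h))
  -- the commutator maps
  let τ : A → M → M := fun n v => ρ n v * v⁻¹
  have τmem : ∀ n ∈ T, ∀ v, τ n v ∈ Z2 := hT1
  have τmul : ∀ n v w, τ n (v * w) = τ n v * τ n w := by
    intro n v w
    simp only [τ, map_mul, mul_inv]
    exact mul_mul_mul_comm _ _ _ _
  have τpow : ∀ n v (k : ℕ), τ n (v ^ k) = τ n v ^ k := by
    intro n v k
    simp only [τ, map_pow, mul_pow, inv_pow]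
  have τadd : ∀ n ∈ T, ∀ m ∈ T, ∀ v, τ (n * m) v = τ n v * τ m v := by
    intro n hn m hm v
    have e : ρ m v = τ m v * v := by simp [τ]
    have : ρ (n * m) v = τ m v * ρ n v := by
      rw [map_mul, MulAut.mul_apply, e, map_mul, hT2 n hn _ (τmem m hm v)]
    simp only [τ] at this ⊢
    rw [this]
    ac_rfl
  have τpowT : ∀ n ∈ T, ∀ v (k : ℕ), τ (n ^ k) v = τ n v ^ k := by
    intro n hn v k
    induction k with
    | zero => simp [τ]
    | succ k ih => rw [pow_succ, τadd _ (pow_mem hn k) _ hn, ih, pow_succ]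
  -- a nontrivial element of `T` moves every nontrivial element of `L`
  have moves : ∀ n ∈ T, ∀ v, τ n v ≠ 1 → ∀ l ∈ L, l ≠ 1 → τ n l ≠ 1 := by
    intro n hn v hv l hl hl1 h
    have hv' : ρ n v ≠ v := fun h' => hv (by simp only [τ]; rw [h', mul_inv_cancel])
    have hl' : ρ n l = l := by
      simp only [τ] at h
      exact mul_inv_eq_one.mp h
    refine hinj n hn ⟨v, hv'⟩ b hb (hdis (n * b) b l hl1 ?_ hl)
    obtain ⟨z, hz, e⟩ := (mem_iff b l).mp hl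
    rw [mem_iff]
    exact ⟨z, hz, by rw [map_mul, MulAut.mul_apply, e, hl']⟩
  -- determinants
  have dets : ∀ n ∈ T, ∀ x y, τ n l1 = E z1 z2 x → τ n l2 = E z1 z2 y → x ≠ (0, 0) →
      x.1 * y.2 - x.2 * y.1 ≠ 0 := by
    intro n hn x y hx hy hx0
    apply det_ne
    intro i j hij h0
    have hv : τ n l1 ≠ 1 := by
      rw [hx]
      intro h
      exact hx0 (Einj _ _ (by rw [h, E0]))
    have e1 : ρ b (E z1 z2 (i, j)) = l1 ^ i.val * l2 ^ j.val := by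
      simp only [E, map_mul, map_pow, hl1, hl2]
    refine moves n hn l1 hv (ρ b (E z1 z2 (i, j))) ⟨_, (Z2mem _).mpr ⟨_, rfl⟩, rfl⟩ ?_ ?_
    · intro h
      have : E z1 z2 (i, j) = 1 := (ρ b).injective (by rw [h, _root_.map_one])
      exact hij (Einj _ _ (by rw [this, E0]))
    · rw [e1, τmul, τpow, τpow, hx, hy, ← Esmul, ← Esmul, ← Eadd]
      simp only [Prod.mk_add_mk]
      rw [h0, E0]
  -- the Weyl elements
  have hb' : Z2.map (ρ b⁻¹).toMonoidHom ≠ Z2 := by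
    intro h
    apply hb
    ext v
    rw [mem_iff]
    constructor
    · rintro ⟨z, hz, rfl⟩
      rw [← h, mem_iff] at hz
      obtain ⟨z', hz', rfl⟩ := hz
      rw [← MulAut.mul_apply, ← map_mul, mul_inv_cancel, _root_.map_one]
      exact hz'
    · intro hv
      refine ⟨ρ b⁻¹ v, ?_, ?_⟩
      · rw [← h, mem_iff]
        exact ⟨v, hv, rfl⟩
      · rw [← MulAut.mul_apply, ← map_mul, mul_inv_cancel, _root_.map_one]
        rfl
  set C := closure {x : A | ∃ a : A, ∃ n ∈ T, x = a * n * a⁻¹} with hC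
  have weyl : ∀ m ∈ T, τ m l1 ≠ 1 → ∃ w ∈ C, (∀ l ∈ L, ρ w l = τ m l) ∧
      ∀ z ∈ Z2, ∃ l ∈ L, τ m l = z := by
    intro m hm hm1
    set z := τ m l1 with hz
    have hzZ : z ∈ Z2 := τmem m hm l1
    have hml1 : ρ m l1 = z * l1 := by simp [hz, τ]
    have hbz : ρ b⁻¹ z ≠ 1 := fun h => hm1 ((ρ b⁻¹).injective (by rw [h, _root_.map_one]))
    obtain ⟨n, hn, hn'⟩ := hs b⁻¹ hb' (ρ b⁻¹ z) ⟨z, hzZ, rfl⟩ hbz z1 hz1
    set c := b * n * b⁻¹ with hc
    have bb : ∀ v, ρ b (ρ b⁻¹ v) = v := by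
      intro v
      rw [← MulAut.mul_apply, ← map_mul, mul_inv_cancel, _root_.map_one]
      rfl
    have hcv : ∀ v, ρ c v = ρ b (ρ n (ρ b⁻¹ v)) := by
      intro v
      rw [hc, map_mul, map_mul, MulAut.mul_apply, MulAut.mul_apply]
    have hcz : ρ c z = z * l1 := by
      rw [hcv, hn', map_mul, bb]
    have hne : z * l1 ≠ 1 := by
      rw [← hml1]
      intro h
      exact l1ne ((ρ m).injective (by rw [h, _root_.map_one]))
    have heq := hdis c (m * b) (z * l1) hne ((mem_iff _ _).mpr ⟨z, hzZ, hcz⟩)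
      ((mem_iff _ _).mpr ⟨z1, hz1, by rw [map_mul, MulAut.mul_apply, ← hl1, hml1]⟩)
    have key : ∀ z' ∈ Z2, ∃ l' ∈ L, τ m l' = z' ∧ ρ c z' = z' * l' := by
      intro z' hz'
      have hσ : ρ c z' * z'⁻¹ ∈ L := by
        refine (mem_iff _ _).mpr ⟨ρ n (ρ b⁻¹ z') * (ρ b⁻¹ z')⁻¹, hT1 n hn _, ?_⟩
        rw [_root_.map_mul (ρ b), _root_.map_inv (ρ b), bb, ← hcv]
      have h3 : ρ c z' ∈ Z2.map (ρ (m * b)).toMonoidHom := by
        rw [← heq, mem_iff]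
        exact ⟨z', hz', rfl⟩
      obtain ⟨z'', hz'', h4⟩ := (mem_iff _ _).mp h3
      have hl' : ρ b z'' ∈ L := ⟨z'', hz'', rfl⟩
      set l' := ρ b z'' with hl'd
      have h5 : ρ m l' = ρ c z' := by rw [← h4, map_mul, MulAut.mul_apply]
      have h6 : τ m l' * z'⁻¹ = (ρ c z' * z'⁻¹) * l'⁻¹ := by
        simp only [τ]
        rw [h5]
        ac_rfl
      have h7 : τ m l' * z'⁻¹ = 1 := by
        apply disj
        · rw [h6]
          exact L.mul_mem hσ (L.inv_mem hl')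
        · exact Z2.mul_mem (τmem m hm l') (Z2.inv_mem hz')
      refine ⟨l', hl', mul_inv_eq_one.mp h7, ?_⟩
      rw [h7] at h6
      have := mul_inv_eq_one.mp h6.symm
      rw [mul_inv_eq_iff_eq_mul] at this
      rw [this, mul_comm]
    refine ⟨m * c⁻¹ * m, ?_, ?_, fun z' hz' => ?_⟩
    · have hmC : m ∈ C := subset_closure ⟨1, m, hm, by simp⟩
      have hcC : c ∈ C := subset_closure ⟨b, n, hn, rfl⟩
      exact mul_mem (mul_mem hmC (inv_mem hcC)) hmC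
    · intro l hl
      obtain ⟨l', hl', e1, e2⟩ := key (τ m l) (τmem m hm l)
      have e3 : l' = l := by
        by_contra hne'
        have hne2 : l' * l⁻¹ ≠ 1 := fun h => hne' (mul_inv_eq_one.mp h)
        refine moves m hm l1 hm1 (l' * l⁻¹) (L.mul_mem hl' (L.inv_mem hl)) hne2 ?_
        have e4 : τ m l⁻¹ = (τ m l)⁻¹ := by
          simp only [τ, map_inv, mul_inv, inv_inv]
        rw [τmul, e4, e1, mul_inv_cancel]
      rw [e3] at e2
      have e5 : τ m l * l = ρ m l := by simp [τ]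
      have e6 : ρ c⁻¹ (ρ m l) = τ m l := by
        rw [← e5, ← e2, ← MulAut.mul_apply, ← map_mul, inv_mul_cancel, _root_.map_one]
        rfl
      rw [map_mul, map_mul, MulAut.mul_apply, MulAut.mul_apply, e6]
      exact hT2 m hm _ (τmem m hm l)
    · obtain ⟨l', hl', e1, _⟩ := key z' hz'
      exact ⟨l', hl', e1⟩
  -- the two elements
  have el1 : τ 1 l1 = 1 := by simp [τ]
  obtain ⟨m, hm, hm1⟩ := hs b hb l1 l1L l1ne z1 hz1
  obtain ⟨m', hm', hm1'⟩ := hs b hb l1 l1L l1ne z2 hz2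
  have tm : τ m l1 = E z1 z2 (1, 0) := by
    simp only [τ]
    rw [hm1, E_one, mul_comm l1, mul_inv_cancel_right]
  have tm' : τ m' l1 = E z1 z2 (0, 1) := by
    simp only [τ]
    rw [hm1', E_two, mul_comm l1, mul_inv_cancel_right]
  obtain ⟨y, hy⟩ := (Z2mem _).mp (τmem m hm l2)
  obtain ⟨y', hy'⟩ := (Z2mem _).mp (τmem m' hm' l2)
  have comb1 : ∀ i j : ZMod 3, τ (m ^ i.val * m' ^ j.val) l1 = E z1 z2 (i, j) := by
    intro i j
    rw [τadd _ (pow_mem hm _) _ (pow_mem hm' _), τpowT m hm, τpowT m' hm', tm, tm', ← Esmul, ← Esmul, ← Eadd]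
    simp
  have comb2 : ∀ i j : ZMod 3, τ (m ^ i.val * m' ^ j.val) l2 =
      E z1 z2 (i * y.1 + j * y'.1, i * y.2 + j * y'.2) := by
    intro i j
    rw [τadd _ (pow_mem hm _) _ (pow_mem hm' _), τpowT m hm, τpowT m' hm', hy, hy', ← Esmul, ← Esmul, ← Eadd]
    simp
  obtain ⟨i, j, hij⟩ := exists_neg y y' (fun i j hij =>
    dets _ (mul_mem (pow_mem hm _) (pow_mem hm' _)) _ _ (comb1 i j) (comb2 i j) hij)
  have hy2 : y.2 ≠ 0 := by
    have := dets m hm _ _ tm hy (by decide)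
    simpa using this
  have hij0 : (i, j) ≠ (0, 0) := by
    intro h
    simp only [Prod.mk.injEq] at h
    rw [h.1, h.2] at hij
    apply hy2
    simpa using hij
  set m1 := m ^ i.val * m' ^ j.val with hm1d
  have hm1T : m1 ∈ T := mul_mem (pow_mem hm _) (pow_mem hm' _)
  obtain ⟨w1, hw1, hw1l, -⟩ := weyl m1 hm1T (by
    rw [comb1]
    intro h
    exact hij0 (Einj _ _ (by rw [h, E0])))
  obtain ⟨w2, hw2, hw2l, hw2s⟩ := weyl m hm (by
    rw [tm, E_one]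
    exact z1ne)
  have hh : ∀ l ∈ L, ρ (w1 * w2⁻¹) (τ m l) = τ m1 l := by
    intro l hl
    rw [← hw2l l hl, ← hw1l l hl, ← MulAut.mul_apply, ← map_mul, inv_mul_cancel_right]
  obtain ⟨la, hla, ea⟩ := hw2s z1 hz1
  obtain ⟨lb, hlb, eb⟩ := hw2s z2 hz2
  obtain ⟨a, ha⟩ := (Z2mem _).mp (τmem m1 hm1T la)
  obtain ⟨c, hc⟩ := (Z2mem _).mp (τmem m1 hm1T lb)
  have ha' : ρ (w1 * w2⁻¹) z1 = E z1 z2 a := by
    have h := hh la hla
    rw [ea, ha] at h
    exact h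
  have hc' : ρ (w1 * w2⁻¹) z2 = E z1 z2 c := by
    have h := hh lb hlb
    rw [eb, hc] at h
    exact h
  have hE : ∀ v, ρ (w1 * w2⁻¹) (E z1 z2 v) = E z1 z2 (v.1 * a.1 + v.2 * c.1, v.1 * a.2 + v.2 * c.2) := by
    intro v
    have : ρ (w1 * w2⁻¹) (E z1 z2 v) = ρ (w1 * w2⁻¹) z1 ^ v.1.val * ρ (w1 * w2⁻¹) z2 ^ v.2.val := by
      simp only [E, _root_.map_mul (ρ (w1 * w2⁻¹)), map_pow]
    rw [this, ha', hc', ← Esmul, ← Esmul, ← Eadd]
    rfl
  have q1 := Einj _ _ ((comb1 i j).symm.trans ((hh l1 l1L).symm.trans (by rw [tm, hE])))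
  have q2 := Einj _ _ ((comb2 i j).symm.trans ((hh l2 l2L).symm.trans (by rw [hy, hE])))
  simp only [Prod.mk.injEq] at q1 q2
  obtain ⟨q1a, q1b⟩ := q1
  obtain ⟨q2a, q2b⟩ := q2
  have hdet : a.1 * c.2 - a.2 * c.1 = -1 := by
    apply mul_left_cancel₀ hy2
    rw [q2a, q2b, q1a, q1b] at hij
    linear_combination hij
  refine ⟨w1 * w2⁻¹, mul_mem hw1 (inv_mem hw2), a.1.val, a.2.val, c.1.val, c.2.val, ha', hc', ?_⟩
  have : ((a.1.val * c.2.val : ℕ) : ZMod 3) = ((a.2.val * c.1.val + 2 : ℕ) : ZMod 3) := by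
    push_cast
    simp only [ZMod.natCast_val, ZMod.cast_id', id]
    have h3 : (3 : ZMod 3) = 0 := by decide
    linear_combination hdet - h3
  exact (ZMod.natCast_eq_natCast_iff' _ _ _).mp this

end Cfsg.Agent.H993.ExistsDet
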