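import Cfsg.Agent.H993.AbTool
import Cfsg.Agent.H831.SmallCoThree
import Cfsg.Agent.H547.SelfCent.Conway

/-!
# Abelian subgroups of `Co3` (helper993, for S2501)

`ab3_Co3`.
-/

set_option autoImplicit false

namespace Cfsg.Agent.H993.AbCoThree

open Cfsg Subgroup Cfsg.Agent.H498.Ab Cfsg.Agent.H993.AbTool
open Cfsg.Agent.SporRec.Co3.Chain Cfsg.Agent.SporRec.Co3.Ident

theorem exists_ne_of_card {S : Type*} [Group S] [Finite S] [IsSimpleGroup S] (h : ¬ (Nat.card S).Prime) :
    ∃ a b : S, a * b ≠ b * a := by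
  by_contra hcon
  push Not at hcon
  let _ : CommGroup S := { (inferInstance : Group S) with mul_comm := hcon }
  exact h IsSimpleGroup.prime_card

theorem abLE_conj {G : Type*} [Group G] [Finite G] {b : ℕ} (g x : G) (h : AbLE b ↥(centralizer ({x} : Set G))) :
    AbLE b ↥(centralizer ({g * x * g⁻¹} : Set G)) := by
  have h0 : ∀ y : ↥(centralizer ({g * x * g⁻¹} : Set G)),
      ((MulAut.conj g⁻¹).toMonoidHom.comp (centralizer ({g * x * g⁻¹} : Set G)).subtype) y ∈
        centralizer ({x} : Set G) := by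
    intro y
    have hy := mem_centralizer_singleton_iff.1 y.2
    rw [mem_centralizer_singleton_iff]
    show g⁻¹ * (y : G) * g⁻¹⁻¹ * x = x * (g⁻¹ * (y : G) * g⁻¹⁻¹)
    calc g⁻¹ * (y : G) * g⁻¹⁻¹ * x = g⁻¹ * ((y : G) * (g * x * g⁻¹)) * g := by group
      _ = g⁻¹ * (g * x * g⁻¹ * y) * g := by rw [hy]
      _ = x * (g⁻¹ * (y : G) * g⁻¹⁻¹) := by group
  refine h.of_injective (MonoidHom.codRestrict _ _ h0) fun y z hyz => ?_
  exact Subtype.ext ((MulAut.conj g⁻¹).injective (congrArg Subtype.val hyz))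

theorem card_of_ker {C S : Type*} [Group C] [Group S] [Finite C] {f : C →* S} (hf : Function.Surjective f) {n : ℕ}
    (hS : Nat.card S = n) {k : ℕ} (hk : Nat.card f.ker ≤ k) : Nat.card C ≤ k * n := by
  have h1 : Nat.card C = Nat.card ↥f.ker * Nat.card S := by
    rw [← Subgroup.card_mul_index f.ker, Subgroup.index_ker, MonoidHom.range_eq_top.2 hf, Subgroup.card_top]
  rw [h1, hS]
  exact Nat.mul_le_mul_right _ hk

theorem abLE_two {x : G3} (hx : orderOf x = 2) : AbLE 2409 ↥(centralizer ({x} : Set G3)) := by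
  obtain ⟨w, D⟩ := CTwoTab.Co3.exists_data
  have := CTwoTab.Co3.finite_G3
  obtain ⟨g, rfl | rfl⟩ := D.cls x hx
  · obtain ⟨π, N⟩ := D.ns
    have hs := Co2Type.Setup.isSimpleGroup_sp6
    refine abLE_conj _ _ (abLE_of_simple (f := π) (k := 2) ?_ N.surj (CTwoTab.Co3.card_ker_of_NS N).le ?_)
    · have : Finite Cfsg.Agent.SporRec.TwoSp6.Sp.S :=
        Nat.finite_of_card_ne_zero (by rw [SporRec.TwoSp6.Sp.card_S]; norm_num)
      exact exists_ne_of_card (by rw [SporRec.TwoSp6.Sp.card_S]; norm_num)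
    · rw [CTwoTab.Co3.card_of_NS N]
      norm_num
  · obtain ⟨f, hf, hk⟩ := D.hom
    have := D.simple
    have h2 : Nat.card ↥f.ker ≤ 2 := by
      have h3 : (f.ker : Set ↥(centralizer ({w} : Set G3))) ⊆ {1, ⟨w, mem_centralizer_singleton_iff.2 rfl⟩} := by
        intro x hx
        rcases hk x hx with h | h
        · exact Or.inl h
        · exact Or.inr (Subtype.ext h)
      have h4 := Set.ncard_le_ncard h3 (Set.toFinite _)
      refine h4.trans ((Set.ncard_insert_le _ _).trans ?_)
      rw [Set.ncard_singleton]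
    have h5 := card_of_ker hf D.card h2
    refine abLE_conj _ _ (abLE_of_simple (f := f) (k := 2) ?_ hf h2 (by omega))
    have : Finite Spor.M12 := Nat.finite_of_card_ne_zero (by rw [D.card]; norm_num)
    exact exists_ne_of_card (by rw [D.card]; norm_num)

/-- a bound for the orders of the abelian subgroups of order divisible by `m` -/
def BA (m b : ℕ) (G : Type*) [Group G] : Prop :=
  ∀ A : Subgroup G, IsMulCommutative A → m ∣ Nat.card A → Nat.card A ≤ b

theorem BA.congr {G H : Type*} [Group G] [Group H] {m b : ℕ} (e : G ≃* H) (h : BA m b G) : BA m b H := by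
  intro A hA hd
  have h1 := h (A.map (e.symm : H →* G)) (comm_map _ hA) (by
    rwa [Subgroup.card_map_of_injective e.symm.injective])
  rwa [Subgroup.card_map_of_injective e.symm.injective] at h1

/-- one bound for the centralizers -/
theorem ba_of_card {G : Type*} [Group G] [Finite G] {p b : ℕ} (hp : p.Prime)
    (h : ∀ x : G, orderOf x = p → Nat.card ↥(centralizer ({x} : Set G)) ≤ b) : BA p b G :=
  ca_of_abLE hp fun x hx => abLE_of_card_le (h x hx)

/-- the general check, with bounds -/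
def chk4 (l : List (ℕ × ℕ)) (N : ℕ) (D : List (ℕ × List ℕ)) (B : List (ℕ × ℕ)) : Bool :=
  (divl l).all fun n => Nat.blt (n ^ 3) N || (B.any (fun d => n % d.1 == 0 && Nat.blt d.2 n) ||
    D.any (fun d => n % d.1 == 0 && d.2.all (fun c => c % n != 0)))

/-- **The general criterion, with bounds.** -/
theorem ab3_of_chk4 {G : Type*} [Group G] [Finite G] {N : ℕ} (hG : Nat.card G = N) (l : List (ℕ × ℕ))
    (hv : OrdDiv.valid l N = true) (D : List (ℕ × List ℕ)) (hD : ∀ d ∈ D, CA d.1 d.2 G) (B : List (ℕ × ℕ))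
    (hB : ∀ d ∈ B, BA d.1 d.2 G) (hc : chk4 l N D B = true) : Ab3 G := by
  intro A hA
  have h1 : Nat.card A ∈ divl l := by
    refine mem_divl (OrdDiv.valid_prime hv) ?_
    rw [OrdDiv.valid_prod hv, ← hG]
    exact Subgroup.card_subgroup_dvd_card A
  unfold chk4 at hc
  rw [List.all_eq_true] at hc
  have h2 := hc _ h1
  rw [Bool.or_eq_true, Bool.or_eq_true] at h2
  rcases h2 with h2 | h2 | h2
  · rw [hG]
    rwa [Nat.blt_eq] at h2
  · exfalso
    rw [List.any_eq_true] at h2
    obtain ⟨d, hd, h3⟩ := h2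
    rw [Bool.and_eq_true, Nat.blt_eq] at h3
    have h4 := hB d hd A hA (Nat.dvd_of_mod_eq_zero (by simpa using h3.1))
    exact absurd h3.2 (Nat.not_lt.2 h4)
  · exfalso
    rw [List.any_eq_true] at h2
    obtain ⟨d, hd, h3⟩ := h2
    rw [Bool.and_eq_true, List.all_eq_true] at h3
    obtain ⟨h4, h5⟩ := h3
    obtain ⟨c, hcL, hdc⟩ := hD d hd A hA (Nat.dvd_of_mod_eq_zero (by simpa using h4))
    have h6 := h5 c hcL
    simp only [bne_iff_ne, ne_eq] at h6
    exact h6 (Nat.mod_eq_zero_of_dvd hdc)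

theorem ab3_Co3 {G : Type*} [Group G] [Finite G] [IsSimpleGroup G] (h : Cfsg.Spor.IsoCo3 G) : Ab3 G := by
  have hfin := CTwoTab.Co3.finite_G3
  have e := SporRec.Co3.Model.equivCo3
  have hfin3 : Finite Spor.Co3 := Finite.of_equiv _ e.toEquiv
  have hc : Nat.card Spor.Co3 = 495766656000 := by rw [← Nat.card_congr e.toEquiv, H831.SmallCo.Three.card_G3]
  let φ : Spor.Co3 →* Co0 := Subgroup.inclusion (inf_le_left : Spor.Co3 ≤ Co0)
  have hφ : Function.Injective φ := Subgroup.inclusion_injective _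
  have hv := PreUniqCo.Rows.leechV_ne
  have hfix : ∀ x, φ x • Spor.leechV = Spor.leechV := fun x => x.2.2
  obtain ⟨e'⟩ := h
  have hcG : Nat.card G = 495766656000 := by rw [Nat.card_congr e'.toEquiv, hc]
  have h2 : BA 2 2409 Spor.Co3 := BA.congr e (ca_of_abLE Nat.prime_two fun x hx => abLE_two hx)
  have h5 : CA 5 [384000] Spor.Co3 := ca_of_cent Nat.prime_five fun x hx => by
    have h1 := H831.SmallCo.dvd_five hφ hv hfix (a := 10) (b := 7) (by rw [hc]; norm_num) hx
    norm_num at h1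
    exact h1
  have h7 : BA 7 4704 Spor.Co3 := ba_of_card (by norm_num) fun x hx =>
    H831.SmallCo.card_seven hφ hv hfix hx
  have h11 : BA 11 132 Spor.Co3 := ba_of_card (by norm_num) fun x hx =>
    H831.SmallCo.card_eleven hφ hv hfix hx
  have h23 : ∀ q : ℕ, q.Prime → ¬ q ∣ 46 → Fb (23 * q) Spor.Co3 := fun q hq hq46 =>
    fb_of_noComm (by norm_num) hq fun x y hx hy hxy => by
      apply hq46
      have h1 : φ y * φ x = φ x * φ y := by rw [← map_mul, ← map_mul, hxy]
      have h3 := H547.SelfCent.Conway.co0_exp (x := φ x) (g := φ y) (by rw [orderOf_injective _ hφ, hx]) h1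
      rw [← hy, ← orderOf_injective φ hφ y]
      exact orderOf_dvd_of_pow_eq_one h3
  have e2 : Spor.Co3 ≃* G := e'.symm
  refine ab3_of_chk4 hcG [(2, 10), (3, 7), (5, 3), (7, 1), (11, 1), (23, 1)] (by decide +kernel)
    [(5, [384000]), (23 * 3, []), (23 * 5, [])] ?_ [(2, 2409), (7, 4704), (11, 132)] ?_ (by decide +kernel)
  · intro d hd
    rw [List.mem_cons, List.mem_cons, List.mem_singleton] at hd
    rcases hd with rfl | rfl | rfl
    · exact h5.congr e2
    · exact ((h23 3 (by norm_num) (by norm_num)).congr e2).ca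
    · exact ((h23 5 (by norm_num) (by norm_num)).congr e2).ca
  · intro d hd
    rw [List.mem_cons, List.mem_cons, List.mem_singleton] at hd
    rcases hd with rfl | rfl | rfl
    · exact h2.congr e2
    · exact h7.congr e2
    · exact h11.congr e2

end Cfsg.Agent.H993.AbCoThree
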