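import Cfsg.Agent.H993.AbJanko
import Cfsg.Agent.CpAutJThree.Row
import Cfsg.Agent.H898.J3Cent

/-!
# Abelian subgroups of `J3` (helper993, for S2501)

`ab3_J3`.
-/

set_option autoImplicit false

namespace Cfsg.Agent.H993.AbJThree

open Cfsg Subgroup Cfsg.Agent.H498.Ab Cfsg.Agent.H993.AbTool Cfsg.Agent.J3Type.OneClass
open Cfsg.Agent.H805.NilSp (card_cent_isConj card_cent_prime_eq)

universe u

variable {G : Type u} [Group G]

/-- `C(y) ∩ C(t)` from a model -/
theorem card_inf_of_model {t x : G} {p m : ℕ} (hM : HasModel t)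
    (hm : ∀ (Q : Subgroup (centralizer ({t} : Set G))) (v : Fin 5 → centralizer ({t} : Set G))
      (ρ : centralizer ({t} : Set G) →* J2Type.Model.SP), J2Type.Model.IsModel Q (zc t) v ρ →
      ∀ c : centralizer ({t} : Set G), orderOf c = p → Nat.card {y : centralizer ({t} : Set G) // y * c = c * y} = m)
    (hx : orderOf x = p) (hxt : x * t = t * x) :
    Nat.card ↥(centralizer ({x} : Set G) ⊓ centralizer ({t} : Set G) : Subgroup G) = m := by
  obtain ⟨-, hc, Q, v, ρ, M⟩ := hM
  have hxm : x ∈ centralizer ({t} : Set G) := mem_centralizer_singleton_iff.2 hxt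
  rw [← hm Q v ρ M ⟨x, hxm⟩ (by rw [Subgroup.orderOf_mk, hx])]
  refine Nat.card_congr
    { toFun := fun y => ⟨⟨y, y.2.2⟩, Subtype.ext (mem_centralizer_singleton_iff.1 y.2.1)⟩
      invFun := fun y => ⟨y.1.1, mem_centralizer_singleton_iff.2 (congrArg Subtype.val y.2), y.1.2⟩
      left_inv := fun _ => rfl
      right_inv := fun _ => rfl }

theorem inf_three [Finite G] {t x : G} (hM : HasModel t) (hx : orderOf x = 3) (hxt : x * t = t * x) :
    Nat.card ↥(centralizer ({x} : Set G) ⊓ centralizer ({t} : Set G) : Subgroup G) = 24 :=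
  card_inf_of_model hM (fun _ _ _ M _ hc => J2Type.COdd.card_cent_three M hM.2.1 hc) hx hxt

theorem inf_five [Finite G] {t x : G} (hM : HasModel t) (hx : orderOf x = 5) (hxt : x * t = t * x) :
    Nat.card ↥(centralizer ({x} : Set G) ⊓ centralizer ({t} : Set G) : Subgroup G) = 10 :=
  card_inf_of_model hM (fun _ _ _ M _ hc => J2Type.COdd.card_cent_five M hM.2.1 hc) hx hxt

/-- a group of order 2430 with central `y` of order 5 and an involution centralizing no 3-element: the Sylow
3-subgroups are abelian -/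
theorem comm_of_2430 {H : Type*} [Group H] [Finite H] (hH : Nat.card H = 2430) {y t : H} (hy : orderOf y = 5)
    (hyc : ∀ h : H, h * y = y * h) (ht : t * t = 1) (htf : Nat.card ↥(centralizer ({t} : Set H)) = 10) :
    ∃ P : Subgroup H, Nat.card P = 3 ^ 5 ∧ IsMulCommutative P := by
  have h3 : Fact (Nat.Prime 3) := ⟨Nat.prime_three⟩
  obtain ⟨P⟩ : Nonempty (Sylow 3 H) := inferInstance
  have hP : Nat.card P = 3 ^ 5 := by
    rw [P.card_eq_multiplicity, hH, show (2430 : ℕ) = 3 ^ 5 * 10 by norm_num,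
      Nat.factorization_mul (by norm_num) (by norm_num), Finsupp.add_apply,
      Nat.Prime.factorization_pow Nat.prime_three, Nat.factorization_eq_zero_of_not_dvd (show ¬ 3 ∣ 10 by norm_num),
      Finsupp.single_eq_same]
  set N := normalizer ((P : Subgroup H) : Set H) with hN
  have h1 : 3 ^ 5 ∣ Nat.card N := by
    rw [← hP]
    exact Subgroup.card_dvd_of_le Subgroup.le_normalizer
  have h2 : 5 ∣ Nat.card N := by
    have hyN : y ∈ N := by
      rw [hN, mem_normalizer_iff]
      intro h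
      rw [← hyc h, mul_inv_cancel_right]
    have h4 : orderOf (⟨y, hyN⟩ : N) = 5 := by rw [Subgroup.orderOf_mk, hy]
    rw [← h4]
    exact orderOf_dvd_natCard _
  have h5 : 3 ^ 5 * 5 ∣ Nat.card N := Nat.Coprime.mul_dvd_of_dvd_of_dvd (by norm_num) h1 h2
  have h6 := N.card_mul_index
  rw [hH] at h6
  have h7 : N.index ∣ 2 := by
    obtain ⟨k, hk⟩ := h5
    rw [hk] at h6
    refine ⟨k, ?_⟩
    have : 3 ^ 5 * 5 * (k * N.index) = 3 ^ 5 * 5 * 2 := by rw [← mul_assoc, h6]; norm_num
    have := Nat.eq_of_mul_eq_mul_left (by norm_num) this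
    rw [← this, mul_comm]
  have h8 : N.index = 1 := by
    have h9 : Nat.card (Sylow 3 H) ≡ 1 [MOD 3] := card_sylow_modEq_one 3 H
    have h10 : Nat.card (Sylow 3 H) = N.index := by
      rw [Sylow.card_eq_index_normalizer P]
      rfl
    rw [h10] at h9
    rcases (Nat.dvd_prime Nat.prime_two).1 h7 with h | h
    · exact h
    · rw [h] at h9
      exact absurd h9 (by decide)
  have hn : (P : Subgroup H).Normal := normalizer_eq_top_iff.1 (Subgroup.index_eq_one.1 h8)
  refine ⟨P, hP, ?_⟩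
  have ht' : t⁻¹ = t := inv_eq_of_mul_eq_one_left ht
  let φ : ↥(P : Subgroup H) ≃* ↥(P : Subgroup H) := MulAut.conjNormal t
  have hφc : ∀ p : ↥(P : Subgroup H), ((φ p : ↥(P : Subgroup H)) : H) = t * p * t⁻¹ := fun p => rfl
  have hφ : MonoidHom.FixedPointFree φ := by
    intro p hp
    have h9 : t * p * t⁻¹ = (p : H) := by rw [← hφc, hp]
    have h10 : (p : H) ∈ centralizer ({t} : Set H) := by
      rw [mem_centralizer_singleton_iff]
      calc (p : H) * t = t * p * t⁻¹ * t := by rw [h9]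
        _ = t * p := by group
    have h11 : orderOf p ∣ 10 := by
      rw [← htf, ← Subgroup.orderOf_coe, ← Subgroup.orderOf_mk (p : H) h10]
      exact orderOf_dvd_natCard _
    have h12 : orderOf p ∣ 3 ^ 5 := by
      rw [← hP]
      exact orderOf_dvd_natCard _
    have h13 : orderOf p ∣ 1 := by
      have := Nat.dvd_gcd h11 h12
      norm_num at this
      rw [this]
      exact orderOf_one.dvd
    exact orderOf_eq_one_iff.1 (Nat.dvd_one.1 h13)
  have hinv : Function.Involutive φ := by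
    intro p
    apply Subtype.ext
    rw [hφc, hφc, ht']
    calc t * (t * p * t) * t = (t * t) * p * (t * t) := by group
      _ = p := by rw [ht]; group
  rw [comm_iff]
  intro a ha b hb
  have := hφ.commute_all_of_involutive hinv ⟨a, ha⟩ ⟨b, hb⟩
  exact congrArg Subtype.val this.eq

/-! ### the row -/

section row

variable {K : Type u} [Group K] [Finite K]

/-- the elements of order 5 -/
theorem five (h : Spor.IsoJ3 K) (hs : IsSimpleGroup K) {y : K} (hy : orderOf y = 5) :
    Nat.card ↥(centralizer ({y} : Set K)) ∈ [30, 90, 2430] ∧ ∃ t : K, orderOf t = 2 ∧ y * t = t * y := by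
  obtain ⟨hc, hM, hone, -⟩ := CpAutJThree.base h
  have h5 : Fact (Nat.Prime 5) := ⟨Nat.prime_five⟩
  have h2 : Fact (Nat.Prime 2) := ⟨Nat.prime_two⟩
  -- an involution
  obtain ⟨t, ht⟩ := exists_prime_orderOf_dvd_card' (G := K) 2 (by rw [hc]; norm_num)
  obtain ⟨y₀, hy₀⟩ := exists_prime_orderOf_dvd_card' (G := ↥(centralizer ({t} : Set K))) 5
    (by rw [(hM t ht).2.1]; norm_num)
  have hy₀' : orderOf (y₀ : K) = 5 := by rw [Subgroup.orderOf_coe, hy₀]
  have hy₀t : (y₀ : K) * t = t * y₀ := mem_centralizer_singleton_iff.1 y₀.2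
  have heq : Nat.card ↥(centralizer ({y} : Set K)) = Nat.card ↥(centralizer ({(y₀ : K)} : Set K)) :=
    card_cent_prime_eq Nat.prime_five (by rw [hc]; norm_num) hy₀' hy
  have heven : 2 ∣ Nat.card ↥(centralizer ({y} : Set K)) := by
    rw [heq, ← ht, ← Subgroup.orderOf_mk t (mem_centralizer_singleton_iff.2 hy₀t.symm :
      t ∈ centralizer ({(y₀ : K)} : Set K))]
    exact orderOf_dvd_natCard _
  have h4 : ¬ 2 ^ 2 ∣ Nat.card ↥(centralizer ({y} : Set K)) := by
    refine CpAut.SmallP.not_dvd_of_DD (k := 2) (by norm_num) fun s hs hs1 hsx h8 => ?_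
    have h9 := inf_five (hM s (orderOf_eq_prime (by rw [pow_two]; exact hs) hs1)) hy hsx.symm
    rw [inf_comm] at h9
    have h10 : (2 ^ 2 : ℕ) ∣ 10 := by rw [← h9]; exact h8
    norm_num at h10
  have h17 : ¬ 17 ∣ Nat.card ↥(centralizer ({y} : Set K)) := by
    intro hd
    have : Fact (Nat.Prime 17) := ⟨by norm_num⟩
    obtain ⟨x, hx⟩ := exists_prime_orderOf_dvd_card' 17 hd
    have hx' : orderOf (x : K) = 17 := by rw [Subgroup.orderOf_coe, hx]
    have hyx : y ∈ centralizer ({(x : K)} : Set K) :=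
      mem_centralizer_singleton_iff.2 (mem_centralizer_singleton_iff.1 x.2).symm
    have h11 : 5 ∣ 17 := by
      rw [← (H898.J3Cent.seventeen h hx').1, ← hy, ← Subgroup.orderOf_mk y hyx]
      exact orderOf_dvd_natCard _
    norm_num at h11
  have h19 : ¬ 19 ∣ Nat.card ↥(centralizer ({y} : Set K)) := by
    intro hd
    have : Fact (Nat.Prime 19) := ⟨by norm_num⟩
    obtain ⟨x, hx⟩ := exists_prime_orderOf_dvd_card' 19 hd
    have hx' : orderOf (x : K) = 19 := by rw [Subgroup.orderOf_coe, hx]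
    have hyx : y ∈ centralizer ({(x : K)} : Set K) :=
      mem_centralizer_singleton_iff.2 (mem_centralizer_singleton_iff.1 x.2).symm
    have h11 : 5 ∣ 19 := by
      rw [← H898.J3Cent.card_nineteen h hx', ← hy, ← Subgroup.orderOf_mk y hyx]
      exact orderOf_dvd_natCard _
    norm_num at h11
  obtain ⟨e, he1, he2, he3, he4⟩ := H805.NilSp.arith Nat.prime_five hy (by rw [hc]; norm_num) (by rw [hc]; norm_num)
  rw [hc] at he3 he4
  have hmem : Nat.card ↥(centralizer ({y} : Set K)) ∈ divl [(2, 7), (3, 5), (5, 1), (17, 1), (19, 1)] := by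
    refine mem_divl ?_ ?_
    · intro x hx
      simp only [List.mem_cons, List.not_mem_nil, or_false] at hx
      rcases hx with rfl | rfl | rfl | rfl | rfl <;> norm_num
    · have : OrdDiv.prodl [(2, 7), (3, 5), (5, 1), (17, 1), (19, 1)] = 50232960 := by decide +kernel
      rw [this, ← hc]
      exact Subgroup.card_subgroup_dvd_card _
  refine ⟨?_, ?_⟩
  · have key : ∀ c ∈ divl [(2, 7), (3, 5), (5, 1), (17, 1), (19, 1)], ∀ e ∈ [2, 4], 2 ∣ c → ¬ 2 ^ 2 ∣ c → ¬ 17 ∣ c →
        ¬ 19 ∣ c → c * e ∣ 50232960 → 50232960 / (c * e) % 5 = 1 → c ∈ [30, 90, 2430] := by decide +kernel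
    refine key _ hmem e ?_ heven h4 h17 h19 he3 he4
    have h12 : e ≤ 4 := Nat.le_of_dvd (by norm_num) he1
    interval_cases e
    · simp at he1
    · exact absurd rfl he2
    · simp
    · norm_num at he1
    · simp
  · obtain ⟨s, hs⟩ := exists_prime_orderOf_dvd_card' 2 heven
    exact ⟨s, by rw [Subgroup.orderOf_coe, hs], (mem_centralizer_singleton_iff.1 s.2).symm⟩

theorem fb_243 (h : Spor.IsoJ3 K) : Fb (3 ^ 5) K := by
  obtain ⟨hc, hM, hone, -⟩ := CpAutJThree.base h
  obtain ⟨c, hc3, -, h1⟩ := CpAutJThree.exc h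
  refine fb_of_full (e := 5) Nat.prime_three (by rw [hc]; norm_num) hc3 ?_
  rw [h1]
  norm_num

theorem fb_405 (h : Spor.IsoJ3 K) (hs : IsSimpleGroup K) : Fb 405 K := by
  obtain ⟨hc, hM, hone, -⟩ := CpAutJThree.base h
  intro A hA hd
  obtain ⟨y, hy, hyA, hle⟩ := exists_le_cent Nat.prime_five hA ((by norm_num : 5 ∣ 405).trans hd)
  obtain ⟨hm, t, ht, hyt⟩ := five h hs hy
  have hd' := hd.trans (Subgroup.card_dvd_of_le hle)
  have hcard : Nat.card ↥(centralizer ({y} : Set K)) = 2430 := by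
    simp only [List.mem_cons, List.not_mem_nil, or_false] at hm
    rcases hm with h1 | h1 | h1
    · rw [h1] at hd'; norm_num at hd'
    · rw [h1] at hd'; norm_num at hd'
    · exact h1
  set H := centralizer ({y} : Set K) with hH
  have hyH : y ∈ H := mem_centralizer_singleton_iff.2 rfl
  have htH : t ∈ H := mem_centralizer_singleton_iff.2 hyt.symm
  have htt : t * t = 1 := by rw [← pow_two, ← ht, pow_orderOf_eq_one]
  obtain ⟨P, hP, hPc⟩ := comm_of_2430 (H := ↥H) hcard (y := ⟨y, hyH⟩) (t := ⟨t, htH⟩)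
    (by rw [Subgroup.orderOf_mk, hy]) (fun g => Subtype.ext (mem_centralizer_singleton_iff.1 g.2))
    (Subtype.ext htt) (by
      rw [← inf_five (hM t ht) hy hyt]
      refine Nat.card_congr
        { toFun := fun g => ⟨g.1.1, g.1.2, ?_⟩
          invFun := fun g => ⟨⟨g.1, g.2.1⟩, ?_⟩
          left_inv := fun _ => rfl
          right_inv := fun _ => rfl }
      · exact mem_centralizer_singleton_iff.2 (congrArg Subtype.val (mem_centralizer_singleton_iff.1 g.2))
      · exact mem_centralizer_singleton_iff.2 (Subtype.ext (mem_centralizer_singleton_iff.1 g.2.2)))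
  refine fb_243 h (P.map H.subtype) (comm_map _ hPc) ?_
  rw [Subgroup.card_map_of_injective H.subtype_injective, hP]

theorem ab3_J3_aux (h : Spor.IsoJ3 K) (hs : IsSimpleGroup K) : Ab3 K := by
  obtain ⟨hc, hM, hone, -⟩ := CpAutJThree.base h
  refine ab3_of_chk3 hc [(2, 7), (3, 5), (5, 1), (17, 1), (19, 1)] (by decide +kernel)
    [(2, [1920]), (3 * 2, [24]), (5 * 2, [10]), (17, [17]), (19, [19]), (405, [])] ?_ (by decide +kernel)
  intro d hd
  simp only [List.mem_cons, List.not_mem_nil, or_false] at hd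
  rcases hd with rfl | rfl | rfl | rfl | rfl | rfl
  · exact ca_of_cent Nat.prime_two fun x hx => (hM x hx).2.1.dvd
  · exact ca_of_two Nat.prime_three Nat.prime_two fun x t hx ht hxt => ⟨24, by simp, (inf_three (hM t ht) hx hxt).dvd⟩
  · exact ca_of_two Nat.prime_five Nat.prime_two fun x t hx ht hxt => ⟨10, by simp, (inf_five (hM t ht) hx hxt).dvd⟩
  · exact ca_of_cent (by norm_num) fun x hx => (H898.J3Cent.seventeen h hx).1.dvd
  · exact ca_of_cent (by norm_num) fun x hx => (H898.J3Cent.card_nineteen h hx).dvd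
  · exact (fb_405 h hs).ca

end row

theorem ab3_J3 {G : Type*} [Group G] [Finite G] [hs : IsSimpleGroup G] (h : Cfsg.Spor.IsoJ3 G) : Ab3 G :=
  ab3_J3_aux h hs

end Cfsg.Agent.H993.AbJThree
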