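import Cfsg.Agent.H993.AbTool
import Cfsg.Agent.H805.NilJanko
import Cfsg.Agent.CpAut.SmallP.TwoPart

/-!
# Abelian subgroups of `J1`, `J2` (helper993, for S2501)

`ab3_J1`, `ab3_J2`.
-/

set_option autoImplicit false

namespace Cfsg.Agent.H993.AbJanko

open Cfsg Subgroup Cfsg.Agent.H498.Ab Cfsg.Agent.H993.AbTool
open Cfsg.Agent.H805.NilSp (noComm_of_spec card_cent_isConj)

/-! ### J1 -/

theorem ab3_J1' : Ab3 Spor.J1 := by
  have hc : Nat.card Spor.J1 = 175560 := Cfsg.Agent.SporadicB.J1.Main.isJ1.2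
  have hf : Finite Spor.J1 := Nat.finite_of_card_ne_zero (by rw [hc]; norm_num)
  have hl := Cfsg.Agent.H413.JOneLocal.isLocal
  have hsp : ∀ p q : ℕ, p.Prime → q.Prime → p ≠ q →
      p * q ∉ ({1, 2, 3, 5, 6, 7, 10, 11, 15, 19} : Finset ℕ) → Fb (p * q) Spor.J1 := by
    intro p q hp hq hpq hn
    refine fb_of_spec hp hq hpq fun g hg => ?_
    have := H413.JOneSpec.orderOf_mem_J1 g
    rw [hg] at this
    exact hn this
  refine ab3_of_chk3 hc [(2, 3), (3, 1), (5, 1), (7, 1), (11, 1), (19, 1)] (by decide +kernel)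
    [(2, [120]), (3, [30]), (5, [30]), (7 * 11, []), (7 * 19, []), (11 * 19, [])] ?_ (by decide +kernel)
  intro d hd
  simp only [List.mem_cons, List.not_mem_nil, or_false] at hd
  rcases hd with rfl | rfl | rfl | rfl | rfl | rfl
  · exact ca_of_cent Nat.prime_two fun x hx => (H413.JOneSpec.card_cent_two hl hx).dvd
  · exact ca_of_cent Nat.prime_three fun x hx => (hl.cent3 x hx).dvd
  · exact ca_of_cent Nat.prime_five fun x hx => (hl.cent5 x hx).dvd
  · exact (hsp 7 11 (by norm_num) (by norm_num) (by norm_num) (by decide)).ca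
  · exact (hsp 7 19 (by norm_num) (by norm_num) (by norm_num) (by decide)).ca
  · exact (hsp 11 19 (by norm_num) (by norm_num) (by norm_num) (by decide)).ca

theorem ab3_J1 {G : Type*} [Group G] [Finite G] [IsSimpleGroup G] (h : Cfsg.Spor.IsoJ1 G) : Ab3 G := by
  obtain ⟨e⟩ := h
  exact ab3_J1'.congr e.symm

/-! ### J2 -/

section J2

open Cfsg.Agent.J2Type.Base Cfsg.Agent.J2Type.CentU Cfsg.Agent.J2Type.Cent5

variable {G : Type*} [Group G] [Finite G] {z u : G}

omit [Finite G] in
/-- transport of `C(x) ∩ C(t)` -/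
theorem card_inf_conj {x t t' : G} {g : G} (hg : g * t * g⁻¹ = t') :
    Nat.card ↥(centralizer ({x} : Set G) ⊓ centralizer ({t'} : Set G) : Subgroup G) =
      Nat.card ↥(centralizer ({t} : Set G) ⊓ centralizer ({g⁻¹ * x * g} : Set G) : Subgroup G) := by
  refine Nat.card_congr (Equiv.subtypeEquiv (MulAut.conj g⁻¹).toEquiv fun y => ?_)
  show (y ∈ centralizer ({x} : Set G) ∧ y ∈ centralizer ({t'} : Set G)) ↔
    (g⁻¹ * y * g⁻¹⁻¹ ∈ centralizer ({t} : Set G) ∧ g⁻¹ * y * g⁻¹⁻¹ ∈ centralizer ({g⁻¹ * x * g} : Set G))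
  rw [mem_centralizer_singleton_iff, mem_centralizer_singleton_iff, mem_centralizer_singleton_iff,
    mem_centralizer_singleton_iff, inv_inv, ← hg]
  constructor
  · rintro ⟨h1, h2⟩
    constructor
    · calc g⁻¹ * y * g * t = g⁻¹ * (y * (g * t * g⁻¹)) * g := by group
        _ = g⁻¹ * (g * t * g⁻¹ * y) * g := by rw [h2]
        _ = t * (g⁻¹ * y * g) := by group
    · calc g⁻¹ * y * g * (g⁻¹ * x * g) = g⁻¹ * (y * x) * g := by group
        _ = g⁻¹ * (x * y) * g := by rw [h1]
        _ = _ := by group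
  · rintro ⟨h1, h2⟩
    constructor
    · calc y * x = g * (g⁻¹ * y * g * (g⁻¹ * x * g)) * g⁻¹ := by group
        _ = g * (g⁻¹ * x * g * (g⁻¹ * y * g)) * g⁻¹ := by rw [h2]
        _ = _ := by group
    · calc y * (g * t * g⁻¹) = g * (g⁻¹ * y * g * t) * g⁻¹ := by group
        _ = g * (t * (g⁻¹ * y * g)) * g⁻¹ := by rw [h1]
        _ = _ := by group

omit [Finite G] in
theorem orderOf_conj (g x : G) : orderOf (g⁻¹ * x * g) = orderOf x := by
  have h2 : g⁻¹ * x * g = MulAut.conj g⁻¹ x := by simp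
  rw [h2, MulEquiv.orderOf_eq]

theorem ab3_J2_aux (h : Fus z u) (hcard : Nat.card G = 604800)
    (hord : ∀ g : G, orderOf g ∈ ({1, 2, 3, 4, 5, 6, 7, 8, 10, 12, 15} : Finset ℕ)) : Ab3 G := by
  have hu240 : Nat.card ↥(centralizer ({u} : Set G)) = 240 := J2Type.Order.card_centralizer_u h
  -- `C(x) ∩ C(t)`
  have hD : ∀ p : ℕ, p.Prime → ∀ m : ℕ, (∀ x : G, orderOf x = p → x * z = z * x →
      Nat.card ↥(centralizer ({z} : Set G) ⊓ centralizer ({x} : Set G) : Subgroup G) ∣ m) →
      (∀ x : G, orderOf x = p → x * u = u * x →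
      Nat.card ↥(centralizer ({u} : Set G) ⊓ centralizer ({x} : Set G) : Subgroup G) ∣ 240) →
      CA (p * 2) [m, 240] G := by
    intro p hp m hz hu
    refine ca_of_two hp Nat.prime_two fun x t hx ht hxt => ?_
    rcases h.cover t ht with h1 | h1
    · obtain ⟨g, hg⟩ := isConj_iff.1 h1
      refine ⟨m, by simp, ?_⟩
      rw [card_inf_conj hg]
      refine hz _ (by rw [orderOf_conj, hx]) ?_
      calc g⁻¹ * x * g * z = g⁻¹ * (x * (g * z * g⁻¹)) * g := by group
        _ = g⁻¹ * ((g * z * g⁻¹) * x) * g := by rw [hg, hxt]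
        _ = _ := by group
    · obtain ⟨g, hg⟩ := isConj_iff.1 h1
      refine ⟨240, by simp, ?_⟩
      rw [card_inf_conj hg]
      refine hu _ (by rw [orderOf_conj, hx]) ?_
      calc g⁻¹ * x * g * u = g⁻¹ * (x * (g * u * g⁻¹)) * g := by group
        _ = g⁻¹ * ((g * u * g⁻¹) * x) * g := by rw [hg, hxt]
        _ = _ := by group
  have h6 : CA (3 * 2) [24, 240] G := hD 3 Nat.prime_three 24 (fun x hx hxz => (h.card24 x hx hxz).dvd)
    (fun x _ _ => (Subgroup.card_dvd_of_le inf_le_left).trans hu240.dvd)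
  have h10 : CA (5 * 2) [20] G := by
    refine ca_of_two Nat.prime_five Nat.prime_two fun x t hx ht hxt => ⟨20, by simp, ?_⟩
    rcases h.cover t ht with h1 | h1
    · rw [inf_comm]
      exact CpAut.SmallP.card_DD_of_isConj (n := 20) h1 (CpAut.SmallP.J2.card_z h) hx hxt.symm
    · rw [inf_comm]
      exact CpAut.SmallP.card_DD_of_isConj (n := 20) h1 (CpAut.SmallP.J2.card_u h) hx hxt.symm
  have h128 : Fb (2 ^ 7) G := by
    refine fb_of_full (e := 7) Nat.prime_two (by rw [hcard]; norm_num) h.hu ?_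
    rw [hu240]
    norm_num
  have h27 : Fb (3 ^ 3) G := by
    obtain ⟨f, U, V, H0, F⟩ := J2Type.CentU.main h
    have h60 : Nat.card H0 = 60 := by
      rw [F.str.card] at hu240
      omega
    refine fb_of_full (e := 3) Nat.prime_three (by rw [hcard]; norm_num) F.f_ord ?_
    rcases card_centralizer_three h F h60 F.f_mem F.f_ord with h1 | h1 | h1 <;> rw [h1] <;> norm_num
  have h225 : Fb 225 G := by
    intro A hA hd
    have : Fact (Nat.Prime 5) := ⟨Nat.prime_five⟩
    have hA' := comm_iff.1 hA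
    obtain ⟨P⟩ : Nonempty (Sylow 5 ↥A) := inferInstance
    have hfac : (Nat.card G).factorization 5 = 2 := by
      rw [hcard, show (604800 : ℕ) = 5 ^ 2 * 24192 by norm_num, Nat.factorization_mul (by norm_num) (by norm_num),
        Finsupp.add_apply, Nat.Prime.factorization_pow Nat.prime_five,
        Nat.factorization_eq_zero_of_not_dvd (show ¬ 5 ∣ 24192 by norm_num), Finsupp.single_eq_same]
    obtain ⟨Q, hQ⟩ := Sylow.exists_subgroup_card_pow_prime (G := A) 5 (n := 2) ((by norm_num : 5 ^ 2 ∣ 225).trans hd)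
    have hQ' : Nat.card (Q.map A.subtype) = 5 ^ (Nat.card G).factorization 5 := by
      rw [Subgroup.card_map_of_injective A.subtype_injective, hQ, hfac]
    obtain ⟨hcen, -⟩ := J2Type.FiveFus.sylow_five h (Sylow.ofCard _ hQ')
    have hle : A ≤ centralizer (((Sylow.ofCard _ hQ' : Sylow 5 G) : Subgroup G) : Set G) := by
      intro a ha
      rw [mem_centralizer_iff]
      intro q hq
      have hqA : q ∈ A := Subgroup.map_subtype_le Q hq
      exact hA' q hqA a ha
    rw [hcen] at hle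
    have h1 := Subgroup.card_dvd_of_le hle
    have h2 : Nat.card ((Sylow.ofCard _ hQ' : Sylow 5 G) : Subgroup G) = 25 := by
      show Nat.card (Q.map A.subtype) = 25
      rw [hQ', hfac]
      norm_num
    have h3 := hd.trans h1
    rw [h2] at h3
    norm_num at h3
  have hsp : ∀ p q : ℕ, p.Prime → q.Prime → p ≠ q →
      p * q ∉ ({1, 2, 3, 4, 5, 6, 7, 8, 10, 12, 15} : Finset ℕ) → Fb (p * q) G := by
    intro p q hp hq hpq hn
    refine fb_of_spec hp hq hpq fun g hg => ?_
    have := hord g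
    rw [hg] at this
    exact hn this
  have h2 : CA 2 [1920, 240] G := by
    refine CD.ca Nat.prime_two fun x hx => ?_
    rcases h.cover x hx with h1 | h1
    · exact ⟨1920, by simp, by rw [card_cent_isConj h1, h.cardC]⟩
    · exact ⟨240, by simp, by rw [card_cent_isConj h1, hu240]⟩
  refine ab3_of_chk3 hcard [(2, 7), (3, 3), (5, 2), (7, 1)] (by decide +kernel)
    [(2, [1920, 240]), (3 * 2, [24, 240]), (5 * 2, [20]), (2 ^ 7, []), (3 ^ 3, []), (225, []), (3 * 7, []),
      (5 * 7, [])] ?_ (by decide +kernel)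
  intro d hd
  simp only [List.mem_cons, List.not_mem_nil, or_false] at hd
  rcases hd with rfl | rfl | rfl | rfl | rfl | rfl | rfl | rfl
  · exact h2
  · exact h6
  · exact h10
  · exact h128.ca
  · exact h27.ca
  · exact h225.ca
  · exact (hsp 3 7 (by norm_num) (by norm_num) (by norm_num) (by decide)).ca
  · exact (hsp 5 7 (by norm_num) (by norm_num) (by norm_num) (by decide)).ca

theorem ab3_J2 [IsSimpleGroup G] (h : Cfsg.Spor.IsoJ2 G) : Ab3 G := by
  obtain ⟨t, u, Q, v, ρ, D⟩ := KFacts.J2.Facts.exists_dat_of h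
  exact ab3_J2_aux D.F D.card (H379.J2Orders.orders_mem D)

end J2

end Cfsg.Agent.H993.AbJanko
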