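import Cfsg.Agent.McLType.ThreeElts
import Cfsg.Agent.H904.McLCent

/-!
# Elements of order 3 of the McLaughlin group on the 275 points (helper993, for S2501)

Every nontrivial element of 3-power order of `McL` fixes at most 14 of the 275 points (checked on the 728 nontrivial
elements of a Sylow 3-subgroup); `McL` is transitive on the points.
-/

set_option autoImplicit false
set_option maxRecDepth 100000

namespace Cfsg.Agent.H993.AbMcLFix

open Cfsg Cfsg.Agent.SporadicStructure.PermChain Cfsg.Agent.McLType.Chain Cfsg.Agent.McLType.X275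
  Cfsg.Agent.McLType.Gens Cfsg.Agent.McLType.Model Cfsg.Agent.McLType.ThreeElts

/-- the number of fixed points of a word below `n` -/
def cntF (l : List ℕ) : ℕ → ℕ
  | 0 => 0
  | n + 1 => bif Nat.beq (evalWord 9 pt l n) n then Nat.succ (cntF l n) else cntF l n

theorem cntF_eq (l : List ℕ) : ∀ n, cntF l n = ((Finset.range n).filter fun i => evalWord 9 pt l i = i).card
  | 0 => rfl
  | n + 1 => by
    rw [cntF, Finset.range_add_one, Finset.filter_insert, cntF_eq l n]
    by_cases h : evalWord 9 pt l n = n
    · rw [if_pos h, Finset.card_insert_of_notMem (by simp)]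
      have : Nat.beq (evalWord 9 pt l n) n = true := by rw [Nat.beq_eq]; exact h
      rw [this]
      rfl
    · rw [if_neg h]
      have : Nat.beq (evalWord 9 pt l n) n = false := by
        rw [← Bool.not_eq_true, Nat.beq_eq]; exact h
      rw [this]
      rfl

/-- the check -/
def okN (N : ℕ) : Bool := Nat.beq N 0 || Nat.ble (cntF (wn 6 0 N) 275) 14

theorem allBelow_of (p : ℕ → Bool) : ∀ n, (∀ x, x < n → p x = true) → allBelow p n = true
  | 0, _ => rfl
  | n + 1, h => by
    rw [allBelow, Bool.and_eq_true]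
    exact ⟨h n (Nat.lt_succ_self n), allBelow_of p n fun x hx => h x (Nat.lt_succ_of_lt hx)⟩

/-- the check, shifted (the 729 cases are done in 9 blocks to keep the memory small) -/
def okR (lo i : ℕ) : Bool := okN (lo + i)

theorem okR0 : allBelow (okR 0) 81 = true := by decide +kernel
theorem okR1 : allBelow (okR 81) 81 = true := by decide +kernel
theorem okR2 : allBelow (okR 162) 81 = true := by decide +kernel
theorem okR3 : allBelow (okR 243) 81 = true := by decide +kernel
theorem okR4 : allBelow (okR 324) 81 = true := by decide +kernel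
theorem okR5 : allBelow (okR 405) 81 = true := by decide +kernel
theorem okR6 : allBelow (okR 486) 81 = true := by decide +kernel
theorem okR7 : allBelow (okR 567) 81 = true := by decide +kernel
theorem okR8 : allBelow (okR 648) 81 = true := by decide +kernel

theorem okR_spec {lo : ℕ} (hk : allBelow (okR lo) 81 = true) {x : ℕ} (h : lo ≤ x) (hx : x < lo + 81) :
    okN x = true := by
  have h1 := allBelow_spec _ _ hk (x - lo) (by omega)
  exact (congrArg okN (Nat.add_sub_cancel' h)).symm.trans h1

theorem ok_all : allBelow okN 729 = true := by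
  refine allBelow_of _ _ fun x hx => ?_
  by_cases h1 : x < 81
  · exact okR_spec okR0 (Nat.zero_le x) (by omega)
  by_cases h2 : x < 162
  · exact okR_spec okR1 (by omega) (by omega)
  by_cases h3 : x < 243
  · exact okR_spec okR2 (by omega) (by omega)
  by_cases h4 : x < 324
  · exact okR_spec okR3 (by omega) (by omega)
  by_cases h5 : x < 405
  · exact okR_spec okR4 (by omega) (by omega)
  by_cases h6 : x < 486
  · exact okR_spec okR5 (by omega) (by omega)
  by_cases h7 : x < 567
  · exact okR_spec okR6 (by omega) (by omega)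
  by_cases h8 : x < 648
  · exact okR_spec okR7 (by omega) (by omega)
  · exact okR_spec okR8 (by omega) (by omega)

/-- the number of fixed points -/
def fx (x : Equiv.Perm (Fin 275)) : ℕ := (Finset.univ.filter fun i => x i = i).card

theorem fx_nf (N : ℕ) : fx (nf N) ≤ cntF (wn 6 0 N) 275 := by
  rw [cntF_eq, fx]
  refine Finset.card_le_card_of_injOn Fin.val (fun i hi => ?_) (fun i _ j _ h => Fin.ext h)
  rw [Finset.mem_coe, Finset.mem_filter] at hi ⊢
  exact ⟨Finset.mem_range.2 i.2, by rw [← nf_apply, hi.2]⟩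

theorem fx_of_mem {x : Equiv.Perm (Fin 275)} (hx : x ∈ P) (h1 : x ≠ 1) : fx x ≤ 14 := by
  obtain ⟨N, hN, rfl⟩ := exists_nf6 hx
  have h := allBelow_spec _ _ ok_all N hN
  rw [okN, Bool.or_eq_true] at h
  rcases h with h | h
  · exact absurd (by rw [Nat.eq_of_beq_eq_true h]; exact nf_zero) h1
  · rw [Nat.ble_eq] at h
    exact (fx_nf N).trans h

theorem fx_conj (g x : Equiv.Perm (Fin 275)) : fx (g * x * g⁻¹) = fx x := by
  unfold fx
  refine (Finset.card_bij (fun i _ => g i) (fun i hi => ?_) (fun i _ j _ h => g.injective h) fun j hj => ?_).symm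
  · rw [Finset.mem_filter] at hi ⊢
    refine ⟨Finset.mem_univ _, ?_⟩
    have h1 : g⁻¹ (g i) = i := Equiv.symm_apply_apply g i
    rw [Equiv.Perm.mul_apply, Equiv.Perm.mul_apply, h1, hi.2]
  · rw [Finset.mem_filter, Equiv.Perm.mul_apply, Equiv.Perm.mul_apply] at hj
    refine ⟨g⁻¹ j, ?_, Equiv.apply_symm_apply g j⟩
    rw [Finset.mem_filter]
    exact ⟨Finset.mem_univ _, by rw [Equiv.Perm.eq_inv_iff_eq]; exact hj.2⟩

open Cfsg.Agent.H904.McLCent in
/-- elements of order 3 fix at most 14 points -/
theorem fx_le {L : Type*} [Group L] (h : Spor.IsoMcL L) {θ : L →* Equiv.Perm (Fin 275)} (R : Rep L θ) {x : L}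
    (hx : orderOf x = 3) : fx (θ x) ≤ 14 := by
  classical
  have hL := card_L h
  have hfin : Finite L := Nat.finite_of_card_ne_zero (by rw [hL]; norm_num)
  have hcard : Nat.card (P.comap θ) = 3 ^ (Nat.card L).factorization 3 := by
    have h1 : Nat.card (P.comap θ) = Nat.card P := by
      have h2 : (P.comap θ).map θ = P := by
        rw [Subgroup.map_comap_eq_self]
        rw [R.range]
        exact P_le_K0
      rw [← h2, Subgroup.comap_map_eq_self_of_injective R.inj]
      exact Nat.card_congr ((P.comap θ).equivMapOfInjective θ R.inj).toEquiv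
    rw [h1, card_P, hL]
    have h3 : (898128000 : ℕ) = 3 ^ 6 * 1232000 := by norm_num
    have h4 : (898128000 : ℕ).factorization 3 = 6 := by
      rw [h3, Nat.factorization_mul (by norm_num) (by norm_num), Finsupp.add_apply,
        Nat.factorization_pow, Finsupp.smul_apply, Nat.Prime.factorization_self Nat.prime_three,
        Nat.factorization_eq_zero_of_not_dvd (by norm_num)]
      rfl
    rw [h4]
    norm_num
  have : Fact (Nat.Prime 3) := ⟨Nat.prime_three⟩
  let T : Sylow 3 L := Sylow.ofCard (P.comap θ) hcard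
  have hp : IsPGroup 3 (Subgroup.zpowers x) := by
    rw [IsPGroup.iff_card]
    exact ⟨1, by rw [Nat.card_zpowers, hx, pow_one]⟩
  obtain ⟨Q, hQ⟩ := hp.exists_le_sylow
  obtain ⟨g, hg⟩ := MulAction.exists_smul_eq L Q T
  have h1 : g * x * g⁻¹ ∈ (T : Subgroup L) := by
    rw [← hg]
    have h2 : x ∈ (Q : Subgroup L) := hQ (Subgroup.mem_zpowers x)
    change g * x * g⁻¹ ∈ ((g • Q : Sylow 3 L) : Subgroup L)
    rw [Sylow.coe_subgroup_smul]
    exact Subgroup.smul_mem_pointwise_smul x (MulAut.conj g) _ h2
  have h2 : θ (g * x * g⁻¹) ∈ P := h1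
  have h3 : θ (g * x * g⁻¹) ≠ 1 := by
    rw [map_mul, map_mul, map_inv, Ne, mul_inv_eq_one, mul_eq_left]
    intro h4
    have h5 : x = 1 := R.inj (h4.trans (map_one θ).symm)
    rw [h5, orderOf_one] at hx
    omega
  have h4 := fx_of_mem h2 h3
  rwa [map_mul, map_mul, map_inv, fx_conj] at h4

open Cfsg.Agent.H904.McLCent in
/-- transitivity -/
theorem transitive {L : Type*} [Group L] {θ : L →* Equiv.Perm (Fin 275)} (R : Rep L θ) (i : Fin 275) :
    ∃ g : L, θ g 0 = i := by
  have h1 : MaskIn K0 (0 : Fin 275) mask0 := by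
    rw [← Nat.eq_of_beq_eq_true orb0]
    exact maskIn_grow K0 0 tabs inK0 6 _ (maskIn_single K0 0)
  have h2 : allBelow (fun y => Nat.testBit mask0 y) 275 = true := by decide +kernel
  obtain ⟨_, g, hg, hgy⟩ := h1 i (allBelow_spec _ _ h2 i i.2)
  rw [← R.range] at hg
  obtain ⟨l, rfl⟩ := hg
  exact ⟨l, hgy⟩

end Cfsg.Agent.H993.AbMcLFix
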