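import Cfsg.Agent.H993.TwoAm
import Cfsg.Agent.H993.AltFacts
import Cfsg.Agent.S1644
import Cfsg.Agent.S3188
import Cfsg.Agent.S0276
import Cfsg.Agent.ClassicalGeometry.AutPSL.Main
import Cfsg.Agent.ClassicalGeometry.PSL2Basic
import Cfsg.Agent.Lib.FieldAutCard
import Cfsg.Agent.WeakTI.PslTwo

/-!
# Centralizers `⟨J⟩ × A_4` and `⟨J⟩ × A_5`
-/

set_option autoImplicit false

namespace Cfsg.Agent.H993.TwoAm

open Cfsg AltSq AltFacts

variable {G : Type*} [Group G] [Finite G]

omit [Finite G] in
theorem tf_conj {T : Subgroup G} (tf : TF ↥T) : ∀ a ∈ T, ∀ b ∈ T, orderOf a = 2 → orderOf b = 2 →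
    ∃ t ∈ T, t * a * t⁻¹ = b := by
  intro a ha b hb ha2 hb2
  obtain ⟨g, hg⟩ := tf.inv ⟨a, ha⟩ ⟨b, hb⟩ (by rw [Subgroup.orderOf_mk, ha2])
    (by rw [Subgroup.orderOf_mk, hb2])
  exact ⟨g, g.2, congrArg Subtype.val hg⟩

theorem odd_normal {J : G} (hJ : orderOf J = 2)
    {T : Subgroup G} (hd : IsInternalDirectProduct (Subgroup.zpowers J) T (Subgroup.centralizer ({J} : Set G)))
    (tf : TF ↥T) (hall : ∀ u : G, orderOf u = 2 → ∃ g : G, g * u * g⁻¹ = J) (K : Subgroup G)
    (hKn : K.Normal) (hK : Odd (Nat.card K)) : K = ⊥ := by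
  have hpow : ∀ k ∈ K, k ^ Nat.card K = 1 := by
    intro k hk
    have := pow_card_eq_one' (x := (⟨k, hk⟩ : K))
    exact congrArg Subtype.val this
  have step1 : ∀ k ∈ K, k * J = J * k → k = 1 := by
    intro k hk hkJ
    have hkC : k ∈ Subgroup.centralizer ({J} : Set G) := by
      rw [Subgroup.mem_centralizer_singleton_iff]; exact hkJ
    obtain ⟨t, ht, hkt⟩ := decomp hJ hd hkC
    rcases hkt with rfl | rfl
    · have hR : (K.subgroupOf T).Normal := hKn.subgroupOf T
      have hodd : Odd (Nat.card (K.subgroupOf T)) := by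
        have h1 : Nat.card (K.subgroupOf T) ∣ Nat.card K := by
          have := Subgroup.card_comap_dvd_of_injective K T.subtype (Subgroup.subtype_injective T)
          exact this
        exact hK.of_dvd_nat h1
      have := tf.odd _ hR hodd
      have h2 : (⟨k, ht⟩ : T) ∈ K.subgroupOf T := hk
      rw [this, Subgroup.mem_bot] at h2
      exact congrArg Subtype.val h2
    · exfalso
      apply not_mem_of hJ hd
      have h1 := hpow _ hk
      have hc : Commute J t := comm_of hd ht
      rw [hc.mul_pow] at h1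
      obtain ⟨j, hj⟩ := hK
      have h2 : J ^ Nat.card K = J := by
        rw [hj, pow_succ, pow_mul, pow_two, sq_of hJ, one_pow, one_mul]
      rw [h2] at h1
      have h3 : J = (t ^ Nat.card K)⁻¹ := eq_inv_of_mul_eq_one_left h1
      rw [h3]
      exact inv_mem (pow_mem ht _)
  have step2 : ∀ u : G, orderOf u = 2 → ∀ k ∈ K, k * u = u * k → k = 1 := by
    intro u hu k hk hku
    obtain ⟨g, hg⟩ := hall u hu
    have h1 := step1 (g * k * g⁻¹) (hKn.conj_mem k hk g) (by
      rw [← hg]
      calc g * k * g⁻¹ * (g * u * g⁻¹) = g * (k * u) * g⁻¹ := by group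
        _ = g * (u * k) * g⁻¹ := by rw [hku]
        _ = _ := by group)
    have : k = g⁻¹ * (g * k * g⁻¹) * g := by group
    rw [this, h1]; group
  have step3 : ∀ u : G, orderOf u = 2 → ∀ k ∈ K, u * k * u⁻¹ = k⁻¹ := by
    intro u hu k hk
    have huu := sq_of hu
    let φ : K →* K := (MulAut.conjNormal u).toMonoidHom
    have hφ : MonoidHom.FixedPointFree φ := by
      intro x hx
      have hx' : u * (x : G) * u⁻¹ = x := congrArg Subtype.val hx
      apply Subtype.ext
      apply step2 u hu x x.2
      calc (x : G) * u = (u * (x : G) * u⁻¹) * u := by rw [hx']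
        _ = u * x := by group
    have h2 : Function.Involutive φ := by
      intro x
      apply Subtype.ext
      show u * (u * (x : G) * u⁻¹) * u⁻¹ = x
      calc u * (u * (x : G) * u⁻¹) * u⁻¹ = (u * u) * x * (u * u)⁻¹ := by group
        _ = x := by rw [huu]; group
    have h3 := hφ.coe_eq_inv_of_involutive h2
    have h4 := congrFun h3 ⟨k, hk⟩
    exact congrArg Subtype.val h4
  obtain ⟨a, b, ha, hb, hab, hcomm⟩ := tf.four
  have ha' : orderOf (a : G) = 2 := by rw [Subgroup.orderOf_coe, ha]
  have hb' : orderOf (b : G) = 2 := by rw [Subgroup.orderOf_coe, hb]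
  have hcomm' : (a : G) * b = b * a := congrArg Subtype.val hcomm
  have hab' : orderOf ((a : G) * b) = 2 := by
    apply orderOf_two
    · calc (a : G) * b * (a * b) = a * (b * a) * b := by group
        _ = a * (a * b) * b := by rw [hcomm']
        _ = (a * a) * (b * b) := by group
        _ = 1 := by rw [sq_of ha', sq_of hb', one_mul]
    · intro h
      apply hab
      apply Subtype.ext
      have h1 : (a : G) = (b : G)⁻¹ := eq_inv_of_mul_eq_one_left h
      rw [h1, inv_eq_iff_mul_eq_one, sq_of hb']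
  rw [Subgroup.eq_bot_iff_forall]
  intro k hk
  apply step2 _ hab' k hk
  have h1 := step3 _ hb' k hk
  have h2 := step3 _ ha' k hk
  have h3 : (a : G) * b * k * ((a : G) * (b : G))⁻¹ = k := by
    calc (a : G) * b * k * ((a : G) * (b : G))⁻¹ = a * (b * k * (b : G)⁻¹) * (a : G)⁻¹ := by group
      _ = a * k⁻¹ * (a : G)⁻¹ := by rw [h1]
      _ = (a * k * (a : G)⁻¹)⁻¹ := by group
      _ = k := by rw [h2, inv_inv]
  calc k * ((a : G) * b) = ((a : G) * b * k * ((a : G) * (b : G))⁻¹) * ((a : G) * b) := by rw [h3]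
    _ = a * b * k := by group

omit [Finite G] in
theorem oddCore_bot (h : ∀ K : Subgroup G, K.Normal → Odd (Nat.card K) → K = ⊥) : oddCore G = ⊥ := by
  show pPrimeCore 2 G = ⊥
  rw [pPrimeCore, sSup_eq_bot]
  rintro N ⟨hN, hc⟩
  exact h N hN (Nat.coprime_two_right.mp hc)

/-- `P` is commutative of order 8. -/
theorem sylow_comm {J : G} (hJ : orderOf J = 2)
    {T : Subgroup G} (hd : IsInternalDirectProduct (Subgroup.zpowers J) T (Subgroup.centralizer ({J} : Set G)))
    (P : Sylow 2 G) (hP : ∀ x ∈ P, x * J = J * x) (hJP : J ∈ P) (hT : Nat.card T = 12 ∨ Nat.card T = 60) :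
    IsMulCommutative (P : Subgroup G) ∧ Nat.card P = 8 ∧ Nat.card (T ⊓ P : Subgroup G) ∣ 4 := by
  have h2 : Fact (Nat.Prime 2) := ⟨Nat.prime_two⟩
  obtain ⟨e⟩ := exists_iso hJ hd
  have hcardC : Nat.card (Subgroup.centralizer ({J} : Set G)) = 2 * Nat.card T := by
    rw [Nat.card_congr e.toEquiv, Nat.card_prod]
    simp
  have hPC : (P : Subgroup G) ≤ Subgroup.centralizer ({J} : Set G) := by
    intro x hx
    rw [Subgroup.mem_centralizer_singleton_iff]
    exact hP x hx
  have hcard : Nat.card P = 8 := by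
    obtain ⟨k, hk⟩ := IsPGroup.iff_card.mp P.isPGroup'
    have h8 : 2 ^ 3 ∣ Nat.card P := by
      apply P.pow_dvd_card_of_pow_dvd_card
      refine dvd_trans ?_ (Subgroup.card_subgroup_dvd_card (Subgroup.centralizer ({J} : Set G)))
      rw [hcardC]
      rcases hT with h | h <;> rw [h] <;> norm_num
    have hd8 : Nat.card P ∣ 2 * Nat.card T := by
      rw [← hcardC]
      exact Subgroup.card_dvd_of_le hPC
    rw [hk] at h8 hd8 ⊢
    have h3 : 3 ≤ k := (Nat.pow_dvd_pow_iff_le_right (by norm_num)).mp h8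
    have h4 : k ≤ 3 := by
      by_contra hlt
      have h5 : 2 ^ 4 ∣ 2 * Nat.card T := dvd_trans (pow_dvd_pow 2 (by omega)) hd8
      rcases hT with h | h <;> rw [h] at h5 <;> norm_num at h5
    have : k = 3 := by omega
    rw [this]
    norm_num
  have hV : Nat.card (T ⊓ P : Subgroup G) ∣ 4 := by
    have h1 : Nat.card (T ⊓ P : Subgroup G) ∣ Nat.card P := Subgroup.card_dvd_of_le inf_le_right
    have h2 : Nat.card (T ⊓ P : Subgroup G) ∣ Nat.card T := Subgroup.card_dvd_of_le inf_le_left
    have h3 := Nat.dvd_gcd h1 h2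
    rw [hcard] at h3
    rcases hT with h | h <;> rw [h] at h3 <;> exact h3
  refine ⟨?_, hcard, hV⟩
  have hVc : ∀ x ∈ (T ⊓ P : Subgroup G), ∀ y ∈ (T ⊓ P : Subgroup G), x * y = y * x := by
    have h3 : Nat.card (T ⊓ P : Subgroup G) ∣ 2 ^ 2 := by simpa using hV
    obtain ⟨j, hj, hj2⟩ := (Nat.dvd_prime_pow Nat.prime_two).mp h3
    have hcomm : ∀ a b : (T ⊓ P : Subgroup G), a * b = b * a := by
      have hj' : j = 0 ∨ j = 1 ∨ j = 2 := by omega
      rcases hj' with rfl | rfl | rfl
      · have : Subsingleton (T ⊓ P : Subgroup G) := by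
          rw [pow_zero] at hj2
          exact (Nat.card_eq_one_iff_unique.mp hj2).1
        intro a b
        exact Subsingleton.elim _ _
      · have : IsCyclic (T ⊓ P : Subgroup G) := isCyclic_of_prime_card (p := 2) (by simpa using hj2)
        intro a b
        exact (IsCyclic.isMulCommutative (α := (T ⊓ P : Subgroup G))).is_comm.comm a b
      · intro a b
        exact (IsPGroup.isMulCommutative_of_card_eq_prime_sq (p := 2) hj2).is_comm.comm a b
    intro x hx y hy
    exact congrArg Subtype.val (hcomm ⟨x, hx⟩ ⟨y, hy⟩)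
  have hdec : ∀ x ∈ P, ∃ t ∈ (T ⊓ P : Subgroup G), x = t ∨ x = J * t := by
    intro x hx
    obtain ⟨t, ht, hxt⟩ := decomp hJ hd (hPC hx)
    refine ⟨t, ⟨ht, ?_⟩, hxt⟩
    rcases hxt with rfl | rfl
    · exact hx
    · have := P.mul_mem (P.inv_mem hJP) hx
      rwa [← mul_assoc, inv_mul_cancel, one_mul] at this
  refine ⟨⟨fun a b => Subtype.ext ?_⟩⟩
  show (a : G) * b = b * a
  obtain ⟨s, hs, has⟩ := hdec a a.2
  obtain ⟨t, ht, hbt⟩ := hdec b b.2
  have h1 := hVc s hs t ht
  have h2 := comm_of hd hs.1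
  have h3 := comm_of hd ht.1
  rcases has with has | has <;> rcases hbt with hbt | hbt <;> rw [has, hbt]
  · exact h1
  · calc s * (J * t) = (s * J) * t := by group
      _ = J * (s * t) := by rw [← h2]; group
      _ = J * (t * s) := by rw [h1]
      _ = J * t * s := by group
  · calc J * s * t = J * (s * t) := by group
      _ = J * (t * s) := by rw [h1]
      _ = (J * t) * s := by group
      _ = t * (J * s) := by rw [h3]; group
  · calc J * s * (J * t) = J * (s * J) * t := by group
      _ = J * (J * s) * t := by rw [h2]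
      _ = J * J * (s * t) := by group
      _ = J * J * (t * s) := by rw [h1]
      _ = J * (J * t) * s := by group
      _ = J * (t * J) * s := by rw [h3]
      _ = J * t * (J * s) := by group


/-! ### `A_4` is solvable -/

set_option maxRecDepth 100000 in
theorem comm_sq_four : ∀ a b : Equiv.Perm (Fin 4), Equiv.Perm.sign a = 1 → Equiv.Perm.sign b = 1 →
    (a * b * a⁻¹ * b⁻¹) * (a * b * a⁻¹ * b⁻¹) = 1 := by
  decide +kernel

set_option maxRecDepth 100000 in
theorem comm_inv_four : ∀ a b : Equiv.Perm (Fin 4), Equiv.Perm.sign a = 1 → Equiv.Perm.sign b = 1 →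
    a * a = 1 → b * b = 1 → a * b = b * a := by
  decide +kernel

theorem solvable_four : Group.IsSolvable (alternatingGroup (Fin 4)) := by
  let V : Subgroup (alternatingGroup (Fin 4)) :=
    { carrier := {a | a * a = 1}
      one_mem' := mul_one 1
      mul_mem' := by
        intro a b ha hb
        have h := comm_inv_four a b a.2 b.2 (congrArg Subtype.val ha) (congrArg Subtype.val hb)
        have h' : a * b = b * a := Subtype.ext h
        show a * b * (a * b) = 1
        calc a * b * (a * b) = a * (b * a) * b := by group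
          _ = a * (a * b) * b := by rw [h']
          _ = (a * a) * (b * b) := by group
          _ = 1 := by rw [show a * a = 1 from ha, show b * b = 1 from hb, one_mul]
      inv_mem' := by
        intro a ha
        show a⁻¹ * a⁻¹ = 1
        rw [← mul_inv_rev, show a * a = 1 from ha, inv_one] }
  have hVc : ∀ a b : V, a * b = b * a := by
    intro a b
    apply Subtype.ext
    apply Subtype.ext
    exact comm_inv_four _ _ a.1.2 b.1.2 (congrArg Subtype.val a.2) (congrArg Subtype.val b.2)
  have hV : Group.IsSolvable V := Group.isSolvable_of_comm hVc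
  have hker : (Abelianization.of (G := alternatingGroup (Fin 4))).ker ≤ V.subtype.range := by
    rw [Subgroup.range_subtype, Abelianization.ker_of, commutator_def, Subgroup.commutator_le]
    intro a _ b _
    show (a * b * a⁻¹ * b⁻¹) * (a * b * a⁻¹ * b⁻¹) = 1
    exact Subtype.ext (comm_sq_four a b a.2 b.2)
  exact Group.isSolvable_of_ker_le_range V.subtype Abelianization.of hker

/-! ### The case `A_4` -/

theorem main_four {G : Type*} [Group G] [Finite G] (hns : ¬ Group.IsSolvable G)
    (h2 : ∀ N : Subgroup G, N.Normal → N.index ≠ 2) {J : G} (hJ : orderOf J = 2)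
    {T : Subgroup G} (hd : IsInternalDirectProduct (Subgroup.zpowers J) T (Subgroup.centralizer ({J} : Set G)))
    (P : Sylow 2 G) (hP : ∀ x ∈ P, x * J = J * x) (hJP : J ∈ P) (e : ↥T ≃* alternatingGroup (Fin 4)) :
    ∃ (F : Type) (_ : Field F) (_ : Fintype F), Fintype.card F = 8 ∧
        Nonempty (G ≃* MulAut (Matrix.ProjectiveSpecialLinearGroup (Fin 2) F)) := by
  classical
  have hfact : Fact (Nat.Prime 2) := ⟨Nat.prime_two⟩
  have tf : TF ↥T := tf_four.congr e
  have hcT : Nat.card T = 12 := by rw [Nat.card_congr e.toEquiv, card_four]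
  obtain ⟨hPc, hP8, hV4⟩ := sylow_comm hJ hd P hP hJP (Or.inl hcT)
  have hall : ∀ u : G, orderOf u = 2 → ∃ g : G, g * u * g⁻¹ = J :=
    fun u hu => all_conj h2 hJ hd P hP hJP (tf_conj tf) hu
  have hodd := odd_normal hJ hd tf hall
  have hcore := oddCore_bot hodd
  obtain ⟨eC⟩ := exists_iso hJ hd
  have hcardC : Nat.card (Subgroup.centralizer ({J} : Set G)) = 24 := by
    rw [Nat.card_congr eC.toEquiv, Nat.card_prod, hcT]
    simp
  -- solvable centralizers
  have hCJ : Group.IsSolvable (Subgroup.centralizer ({J} : Set G)) := by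
    have h4 := solvable_four
    have h5 : Group.IsSolvable (Multiplicative (ZMod 2) × ↥T) := by
      have : Group.IsSolvable ↥T := Group.isSolvable_of_isSolvable_injective (f := e.toMonoidHom) e.injective
      exact inferInstance
    exact Group.isSolvable_of_isSolvable_injective (f := eC.toMonoidHom) eC.injective
  have hC : ∀ t : G, orderOf t = 2 → Group.IsSolvable ↥(Subgroup.centralizer ({t} : Set G)) := by
    intro t ht
    obtain ⟨g, hg⟩ := hall t ht
    have hmem : ∀ x : Subgroup.centralizer ({t} : Set G), g * (x : G) * g⁻¹ ∈ Subgroup.centralizer ({J} : Set G) := by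
      intro x
      have hx := Subgroup.mem_centralizer_singleton_iff.mp x.2
      rw [Subgroup.mem_centralizer_singleton_iff, ← hg]
      calc g * (x : G) * g⁻¹ * (g * t * g⁻¹) = g * (x * t) * g⁻¹ := by group
        _ = g * (t * x) * g⁻¹ := by rw [hx]
        _ = _ := by group
    let f : ↥(Subgroup.centralizer ({t} : Set G)) →* ↥(Subgroup.centralizer ({J} : Set G)) :=
      ((MulAut.conj g).toMonoidHom.comp (Subgroup.centralizer ({t} : Set G)).subtype).codRestrict _ hmem
    have hf : Function.Injective f := by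
      intro x y hxy
      have h1 : g * (x : G) * g⁻¹ = g * (y : G) * g⁻¹ := congrArg Subtype.val hxy
      exact Subtype.ext (mul_left_cancel (mul_right_cancel h1))
    exact Group.isSolvable_of_isSolvable_injective hf
  rcases S3188.result P hPc hC with h | ⟨F, _, _, hF, N, hN, ⟨eN⟩, hCN⟩
  · exact absurd h hns
  -- back to `G`
  let q : G ⧸ oddCore G ≃* G := (QuotientGroup.quotientMulEquivOfEq hcore).trans QuotientGroup.quotientBot
  let N0 : Subgroup G := N.map q.toMonoidHom
  have hN0 : N0.Normal := hN.map _ q.surjective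
  have e0 : ↥N0 ≃* Matrix.ProjectiveSpecialLinearGroup (Fin 2) F :=
    (N.equivMapOfInjective q.toMonoidHom q.injective).symm.trans eN
  have hCN0 : Subgroup.centralizer (N0 : Set G) = ⊥ := by
    rw [Subgroup.eq_bot_iff_forall]
    intro x hx
    have h1 : q.symm x ∈ Subgroup.centralizer (N : Set (G ⧸ oddCore G)) := by
      rw [Subgroup.mem_centralizer_iff]
      intro n hn
      have h3 := Subgroup.mem_centralizer_iff.mp hx (q n) ⟨n, hn, rfl⟩
      apply q.injective
      rw [map_mul, map_mul, q.apply_symm_apply]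
      exact h3
    rw [hCN, Subgroup.mem_bot] at h1
    rw [← q.apply_symm_apply x, h1, map_one]
  have hfin : Finite (Matrix.ProjectiveSpecialLinearGroup (Fin 2) F) := Finite.of_equiv _ e0.toEquiv
  have hcN0 : Nat.card N0 = Nat.card (Matrix.ProjectiveSpecialLinearGroup (Fin 2) F) :=
    Nat.card_congr e0.toEquiv
  -- `N0 ≠ ⊥`
  have hF4 : 4 ≤ Fintype.card F := by
    rcases hF with ⟨-, h⟩ | ⟨n, hn, h⟩
    · omega
    · rw [h]
      calc 4 = 2 ^ 2 := by norm_num
        _ ≤ 2 ^ n := Nat.pow_le_pow_right (by norm_num) hn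
  have hN0ne : N0 ≠ ⊥ := by
    intro h
    have h1 : Nat.card N0 = 1 := by rw [h]; simp
    have h2 := ClassicalGeometry.PSL2Basic.card_PSL2_gcd F
    rw [← hcN0, h1, one_mul] at h2
    have h3 : Nat.gcd 2 (Fintype.card F - 1) ≤ 2 := Nat.gcd_le_left _ (by norm_num)
    have h4 : 4 * 15 ≤ Fintype.card F * (Fintype.card F ^ 2 - 1) := by
      apply Nat.mul_le_mul hF4
      have : 16 ≤ Fintype.card F ^ 2 := by nlinarith
      omega
    omega
  -- all involutions lie in `N0`
  have hinv : ∀ u : G, orderOf u = 2 → u ∈ N0 := by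
    intro u hu
    have heven : 2 ∣ Nat.card N0 := by
      by_contra hne
      exact hN0ne (hodd N0 hN0 (Nat.odd_iff.mpr (by omega)))
    obtain ⟨v, hv⟩ := exists_prime_orderOf_dvd_card' 2 heven
    have hv' : orderOf (v : G) = 2 := by rw [Subgroup.orderOf_coe, hv]
    obtain ⟨g, hg⟩ := hall v hv'
    obtain ⟨g', hg'⟩ := hall u hu
    have hJN : J ∈ N0 := by rw [← hg]; exact hN0.conj_mem _ v.2 _
    have : u = g'⁻¹ * J * g'⁻¹⁻¹ := by rw [← hg']; group
    rw [this]
    exact hN0.conj_mem _ hJN _
  have hPN : (P : Subgroup G) ≤ N0 := by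
    intro p hp
    have hpC : p ∈ Subgroup.centralizer ({J} : Set G) := by
      rw [Subgroup.mem_centralizer_singleton_iff]; exact hP p hp
    have key : ∀ t ∈ T, t ∈ P → t ∈ N0 := by
      intro t ht htP
      have h4 : t ^ 4 = 1 := by
        have h5 : orderOf t ∣ 4 := dvd_trans (Subgroup.orderOf_dvd_natCard (T ⊓ P) ⟨ht, htP⟩) hV4
        exact orderOf_dvd_iff_pow_eq_one.mp h5
      have h6 : ((e ⟨t, ht⟩ : alternatingGroup (Fin 4)) : Equiv.Perm (Fin 4)) ^ 4 = 1 := by
        have h7 : (⟨t, ht⟩ : T) ^ 4 = 1 := Subtype.ext h4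
        have h8 := congrArg e h7
        rw [map_pow, map_one] at h8
        exact congrArg Subtype.val h8
      have h9 := sq_four _ (e ⟨t, ht⟩).2 h6
      have h10 : t * t = 1 := by
        have h11 : e (⟨t, ht⟩ * ⟨t, ht⟩) = e 1 := by
          rw [map_mul, map_one]
          exact Subtype.ext h9
        exact congrArg Subtype.val (e.injective h11)
      by_cases h12 : t = 1
      · rw [h12]; exact one_mem _
      · exact hinv t (orderOf_two h10 h12)
    obtain ⟨t, ht, hpt⟩ := decomp hJ hd hpC
    rcases hpt with rfl | rfl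
    · exact key _ ht hp
    · apply mul_mem (hinv J hJ)
      apply key t ht
      have := P.mul_mem (P.inv_mem hJP) hp
      rwa [← mul_assoc, inv_mul_cancel, one_mul] at this
  have h8N : 8 ∣ Nat.card N0 := by
    rw [← hP8]
    exact Subgroup.card_dvd_of_le hPN
  have h16 : ¬ 16 ∣ Nat.card N0 := by
    intro h
    have h1 : 2 ^ 4 ∣ Nat.card P := P.pow_dvd_card_of_pow_dvd_card
      (dvd_trans (by simpa using h) (Subgroup.card_subgroup_dvd_card N0))
    rw [hP8] at h1
    norm_num at h1
  have hq8 : Fintype.card F = 8 := by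
    rcases hF with ⟨h, -⟩ | ⟨n, hn, h⟩
    · exfalso
      obtain ⟨m, hm, h1⟩ := S0276.card_psl_two (F := F) rfl h
      rw [hcN0, h1] at h8N
      omega
    · have heven : Even (Fintype.card F) := by
        rw [h]; exact (Nat.even_pow.mpr ⟨even_two, by omega⟩)
      have h1 := ClassicalGeometry.PSL2Basic.card_PSL2_even F heven
      rw [h] at h1
      have h3 : n ≤ 3 := by
        by_contra hlt
        apply h16
        rw [hcN0, h1]
        have h5 : 2 ^ 4 ∣ 2 ^ n := pow_dvd_pow 2 (by omega)
        exact Dvd.dvd.mul_right (by simpa using h5) _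
      have h4 : n = 2 ∨ n = 3 := by omega
      rcases h4 with rfl | rfl
      · exfalso
        rw [hcN0, h1] at h8N
        norm_num at h8N
      · rw [h]; norm_num
  refine ⟨F, inferInstance, inferInstance, hq8, ?_⟩
  have hchar : CharP F 2 := by
    have h2 : (2 : F) = 0 := by
      by_contra h
      have := (ClassicalGeometry.PSL2Basic.two_ne_zero_iff_odd F).1 h
      rw [hq8] at this
      exact absurd this (by decide)
    exact CharTwo.of_one_ne_zero_of_two_eq_zero one_ne_zero h2
  have hc1 : Nat.card N0 = 504 := by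
    rw [hcN0, ClassicalGeometry.PSL2Basic.card_PSL2_even F (by rw [hq8]; decide), hq8]
    rfl
  have hc2 : Nat.card (MulAut (Matrix.ProjectiveSpecialLinearGroup (Fin 2) F)) = 1512 := by
    rw [ClassicalGeometry.AutPSL.Main.card_two 2, ClassicalGeometry.PSL2Basic.card_PGL2, hq8,
      Lib.FieldAutCard.card_ringAut (p := 2) (f := 3) (by norm_num) (by rw [hq8]; norm_num)]
    rfl
  -- the embedding
  let f : G →* MulAut N0 := MulAut.conjNormal
  have hfinj : Function.Injective f := by
    rw [injective_iff_map_eq_one]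
    intro g hg
    have : g ∈ Subgroup.centralizer (N0 : Set G) := by
      rw [Subgroup.mem_centralizer_iff]
      intro n hn
      have h1 := congrArg (fun φ : MulAut N0 => ((φ ⟨n, hn⟩ : N0) : G)) hg
      have h3 : g * n * g⁻¹ = n := h1
      calc n * g = (g * n * g⁻¹) * g := by rw [h3]
        _ = g * n := by group
    rwa [hCN0, Subgroup.mem_bot] at this
  have hc3 : Nat.card (MulAut N0) = 1512 := by
    rw [← hc2]
    exact Nat.card_congr (MulAut.congr e0).toEquiv
  have hfinA : Finite (MulAut N0) := Nat.finite_of_card_ne_zero (by rw [hc3]; norm_num)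
  have hd1 : Nat.card G ∣ 1512 := by
    rw [← hc3]; exact Subgroup.card_dvd_of_injective f hfinj
  have hd2 : 504 ∣ Nat.card G := by rw [← hc1]; exact Subgroup.card_subgroup_dvd_card N0
  have hne : Nat.card G ≠ 504 := by
    intro h
    have htop : N0 = ⊤ := Subgroup.eq_top_of_card_eq _ (by rw [hc1, h])
    let e1 : G ≃* Matrix.ProjectiveSpecialLinearGroup (Fin 2) F :=
      (Subgroup.topEquiv.symm.trans (MulEquiv.subgroupCongr htop.symm)).trans e0
    have hp : ∀ c ∈ Subgroup.centralizer ({J} : Set G), c * c = 1 := by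
      intro c hc
      apply WeakTI.PslTwo.cent e1 (sq_of hJ) _ (Subgroup.mem_centralizer_singleton_iff.mp hc).symm
      intro h
      rw [h, orderOf_one] at hJ
      exact absurd hJ (by norm_num)
    have h3 : 3 ∣ Nat.card (Subgroup.centralizer ({J} : Set G)) := by rw [hcardC]; norm_num
    have hf3 : Fact (Nat.Prime 3) := ⟨Nat.prime_three⟩
    obtain ⟨c, hc⟩ := exists_prime_orderOf_dvd_card' 3 h3
    have h5 : c ^ 2 = 1 := by
      rw [pow_two]; exact Subtype.ext (hp c c.2)
    have h6 := orderOf_dvd_of_pow_eq_one h5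
    rw [hc] at h6
    norm_num at h6
  have hcG : Nat.card G = 1512 := by
    obtain ⟨k, hk⟩ := hd2
    rw [hk] at hd1 hne ⊢
    have h5 : k ∣ 3 := by
      have : 504 * k ∣ 504 * 3 := hd1
      exact Nat.dvd_of_mul_dvd_mul_left (by norm_num) this
    have h6 := (Nat.dvd_prime Nat.prime_three).mp h5
    rcases h6 with rfl | rfl
    · exact absurd rfl hne
    · rfl
  have hbij : Function.Bijective f := by
    rw [Nat.bijective_iff_injective_and_card]
    exact ⟨hfinj, by rw [hcG, hc3]⟩
  exact ⟨(MulEquiv.ofBijective f hbij).trans (MulAut.congr e0)⟩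

/-! ### The case `A_5` -/

theorem main_five {G : Type*} [Group G] [Finite G]
    (h2 : ∀ N : Subgroup G, N.Normal → N.index ≠ 2) {J : G} (hJ : orderOf J = 2)
    {T : Subgroup G} (hd : IsInternalDirectProduct (Subgroup.zpowers J) T (Subgroup.centralizer ({J} : Set G)))
    (P : Sylow 2 G) (hP : ∀ x ∈ P, x * J = J * x) (hJP : J ∈ P) (e : ↥T ≃* alternatingGroup (Fin 5)) :
    Cfsg.Spor.IsoJ1 G := by
  classical
  have hfact : Fact (Nat.Prime 2) := ⟨Nat.prime_two⟩
  have tf : TF ↥T := tf_five.congr e
  have hcT : Nat.card T = 60 := by rw [Nat.card_congr e.toEquiv, card_five]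
  have hA5 : IsSimpleGroup (alternatingGroup (Fin 5)) := alternatingGroup.isSimpleGroup (by simp)
  have hntT : Nontrivial T := by
    rw [← Finite.one_lt_card_iff_nontrivial, hcT]; norm_num
  have hsT : IsSimpleGroup T := MulEquiv.isSimpleGroup e
  obtain ⟨hPc, hP8, -⟩ := sylow_comm hJ hd P hP hJP (Or.inr hcT)
  have hall : ∀ u : G, orderOf u = 2 → ∃ g : G, g * u * g⁻¹ = J :=
    fun u hu => all_conj h2 hJ hd P hP hJP (tf_conj tf) hu
  have hodd := odd_normal hJ hd tf hall
  obtain ⟨eC⟩ := exists_iso hJ hd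
  have hconj : ∀ (g x : G), orderOf x = 2 → orderOf (g * x * g⁻¹) = 2 := by
    intro g x hx
    have := orderOf_injective (MulAut.conj g).toMonoidHom (MulAut.conj g).injective x
    simpa [hx] using this
  -- a normal subgroup of `G` with an involution contains all involutions
  have hinv : ∀ K : Subgroup G, K.Normal → K ≠ ⊥ → ∀ u : G, orderOf u = 2 → u ∈ K := by
    intro K hK hK1 u hu
    have heven : 2 ∣ Nat.card K := by
      by_contra hne
      exact hK1 (hodd K hK (Nat.odd_iff.mpr (by omega)))
    obtain ⟨v, hv⟩ := exists_prime_orderOf_dvd_card' 2 heven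
    have hv' : orderOf (v : G) = 2 := by rw [Subgroup.orderOf_coe, hv]
    obtain ⟨g, hg⟩ := hall v hv'
    obtain ⟨g', hg'⟩ := hall u hu
    have hJN : J ∈ K := by rw [← hg]; exact hK.conj_mem _ v.2 _
    have : u = g'⁻¹ * J * g'⁻¹⁻¹ := by rw [← hg']; group
    rw [this]
    exact hK.conj_mem _ hJN _
  -- the subgroup generated by the involutions
  let N : Subgroup G := Subgroup.normalClosure {J}
  have hN : N.Normal := Subgroup.normalClosure_normal
  have hJN : J ∈ N := Subgroup.subset_normalClosure rfl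
  have hJ1 : J ≠ 1 := by
    intro h
    rw [h, orderOf_one] at hJ
    exact absurd hJ (by norm_num)
  have hN1 : N ≠ ⊥ := by
    intro h
    rw [h, Subgroup.mem_bot] at hJN
    exact hJ1 hJN
  have hNinv := hinv N hN hN1
  have hNmin : ∀ K : Subgroup G, (∀ u : G, orderOf u = 2 → u ∈ K) → N ≤ K := by
    intro K hK
    have h1 : N = Subgroup.closure (Group.conjugatesOfSet {J}) := rfl
    rw [h1, Subgroup.closure_le]
    intro x hx
    rw [Group.mem_conjugatesOfSet_iff] at hx
    obtain ⟨a, ha, hx⟩ := hx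
    rw [Set.mem_singleton_iff] at ha
    subst ha
    obtain ⟨c, hc⟩ := isConj_iff.mp hx
    rw [← hc]
    exact hK _ (hconj c _ hJ)
  obtain ⟨a, b, ha, hb, hab, hcomm⟩ := tf.four
  have ha' : orderOf (a : G) = 2 := by rw [Subgroup.orderOf_coe, ha]
  have hTN : T ≤ N := by
    have h1 : (N.subgroupOf T).Normal := hN.subgroupOf T
    rcases h1.eq_bot_or_eq_top with h | h
    · exfalso
      have h3 : a ∈ N.subgroupOf T := hNinv _ ha'
      rw [h, Subgroup.mem_bot] at h3
      rw [h3, orderOf_one] at ha
      exact absurd ha (by norm_num)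
    · rwa [Subgroup.subgroupOf_eq_top] at h
  have hCN : Subgroup.centralizer ({J} : Set G) ≤ N := by
    intro c hc
    obtain ⟨t, ht, hct⟩ := decomp hJ hd hc
    rcases hct with rfl | rfl
    · exact hTN ht
    · exact mul_mem hJN (hTN ht)
  have hPN : (P : Subgroup G) ≤ N := by
    intro p hp
    apply hCN
    rw [Subgroup.mem_centralizer_singleton_iff]
    exact hP p hp
  -- no normal subgroup of index 2 in `N`
  have h2N : ∀ M : Subgroup N, M.Normal → M.index ≠ 2 := by
    intro M hM hi
    have key : ∀ (g : G) (t : G) (ht : t ∈ T), (⟨g * t * g⁻¹, hN.conj_mem _ (hTN ht) _⟩ : N) ∈ M := by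
      intro g
      let f : T →* N := ((MulAut.conj g).toMonoidHom.comp T.subtype).codRestrict N
        (fun t => hN.conj_mem _ (hTN t.2) _)
      have h1 : (M.comap f).Normal := hM.comap f
      rcases h1.eq_bot_or_eq_top with h | h
      · exfalso
        have h3 : (M.comap f).index ∣ 2 := by
          rw [Subgroup.index_comap]
          rw [← hi]
          exact Subgroup.relIndex_dvd_index_of_normal M f.range
        rw [h, Subgroup.index_bot, hcT] at h3
        norm_num at h3
      · intro t ht
        have h3 : (⟨t, ht⟩ : T) ∈ M.comap f := by rw [h]; exact Subgroup.mem_top _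
        exact h3
    have h3 : N ≤ M.map N.subtype := by
      apply hNmin
      intro u hu
      obtain ⟨g, hg⟩ := hall u hu
      obtain ⟨g', hg'⟩ := hall a ha'
      refine ⟨⟨(g⁻¹ * g') * (a : G) * (g⁻¹ * g')⁻¹, hN.conj_mem _ (hTN a.2) _⟩, key _ _ a.2, ?_⟩
      show (g⁻¹ * g') * (a : G) * (g⁻¹ * g')⁻¹ = u
      calc (g⁻¹ * g') * (a : G) * (g⁻¹ * g')⁻¹ = g⁻¹ * (g' * a * g'⁻¹) * g := by group
        _ = g⁻¹ * (g * u * g⁻¹) * g := by rw [hg', hg]
        _ = u := by group
    have h4 : M = ⊤ := by
      rw [Subgroup.eq_top_iff']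
      intro x
      obtain ⟨y, hy, hyx⟩ := h3 x.2
      have : y = x := Subtype.ext hyx
      rwa [this] at hy
    rw [h4, Subgroup.index_top] at hi
    exact absurd hi (by norm_num)
  -- the hypotheses in `N`
  let J' : N := ⟨J, hJN⟩
  have hJ' : orderOf J' = 2 := by rw [Subgroup.orderOf_mk, hJ]
  have hd' : IsInternalDirectProduct (Subgroup.zpowers J') (T.subgroupOf N)
      (Subgroup.centralizer ({J'} : Set N)) := by
    refine ⟨?_, ?_, ?_, ?_, ?_⟩
    · rw [Subgroup.zpowers_le, Subgroup.mem_centralizer_singleton_iff]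
    · intro x hx
      rw [Subgroup.mem_centralizer_singleton_iff]
      exact Subtype.ext (comm_of hd hx).symm
    · rintro x hx y hy
      obtain ⟨k, rfl⟩ := Subgroup.mem_zpowers_iff.mp hx
      have hc : Commute J' y := Subtype.ext (comm_of hd hy)
      exact hc.zpow_left k
    · rw [Subgroup.eq_bot_iff_forall]
      rintro x ⟨hx1, hx2⟩
      obtain ⟨k, rfl⟩ := Subgroup.mem_zpowers_iff.mp hx1
      have h3 : ((J' ^ k : N) : G) ∈ Subgroup.zpowers J ⊓ T := by
        refine ⟨?_, hx2⟩
        rw [Subgroup.coe_zpow]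
        exact Subgroup.zpow_mem _ (Subgroup.mem_zpowers J) k
      rw [hd.2.2.2.1, Subgroup.mem_bot] at h3
      exact Subtype.ext h3
    · apply le_antisymm
      · refine sup_le ?_ ?_
        · rw [Subgroup.zpowers_le, Subgroup.mem_centralizer_singleton_iff]
        · intro x hx
          rw [Subgroup.mem_centralizer_singleton_iff]
          exact Subtype.ext (comm_of hd hx).symm
      · intro c hc
        rw [Subgroup.mem_centralizer_singleton_iff] at hc
        have hc' : (c : G) ∈ Subgroup.centralizer ({J} : Set G) := by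
          rw [Subgroup.mem_centralizer_singleton_iff]
          exact congrArg Subtype.val hc
        obtain ⟨t, ht, hct⟩ := decomp hJ hd hc'
        rcases hct with hct | hct
        · apply Subgroup.mem_sup_right
          show (c : G) ∈ T
          rw [hct]; exact ht
        · have h3 : c = J' * ⟨t, hTN ht⟩ := Subtype.ext hct
          rw [h3]
          exact Subgroup.mul_mem_sup (Subgroup.mem_zpowers J') (show t ∈ T from ht)
  have tf' : TF ↥(T.subgroupOf N) := tf.congr (Subgroup.subgroupOfEquivOfLe hTN)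
  have hallN : ∀ u : N, orderOf u = 2 → ∃ g : N, g * u * g⁻¹ = J' := by
    intro u hu
    apply all_conj h2N hJ' hd' (P.subtype hPN) _ _ (tf_conj tf') hu
    · intro x hx
      exact Subtype.ext (hP x hx)
    · exact hJP
  -- `G = N`
  have hNtop : N = ⊤ := by
    rw [Subgroup.eq_top_iff']
    intro g
    have h3 : g * J * g⁻¹ ∈ N := hN.conj_mem _ hJN _
    obtain ⟨n, hn⟩ := hallN ⟨g * J * g⁻¹, h3⟩ (by rw [Subgroup.orderOf_mk]; exact hconj g J hJ)
    have hn' : (n : G) * (g * J * g⁻¹) * (n : G)⁻¹ = J := congrArg Subtype.val hn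
    have h4 : (n : G) * g ∈ Subgroup.centralizer ({J} : Set G) := by
      rw [Subgroup.mem_centralizer_singleton_iff]
      calc (n : G) * g * J = ((n : G) * (g * J * g⁻¹) * (n : G)⁻¹) * (n * g) := by group
        _ = J * (n * g) := by rw [hn']
    have h5 := mul_mem (inv_mem n.2) (hCN h4)
    rwa [← mul_assoc, inv_mul_cancel, one_mul] at h5
  have hnt : Nontrivial G := ⟨J, 1, hJ1⟩
  have hsimple : IsSimpleGroup G := by
    refine ⟨fun K hK => ?_⟩
    by_cases hK1 : K = ⊥
    · exact Or.inl hK1
    · right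
      have := hNmin K (hinv K hK hK1)
      rw [hNtop] at this
      exact top_le_iff.mp this
  exact S1644.result P hPc hP8 J hJ (eC.trans (MulEquiv.prodCongr (MulEquiv.refl _) e))

end Cfsg.Agent.H993.TwoAm
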